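import Mathlib
import Cfsg.Agent.Lib.SmallOrd.PN
import Cfsg.Agent.Lib.SmallOrd.Basic
import Cfsg.Agent.Lib.Basic.SmallSimple
import Cfsg.Agent.S0991

/-!
# Common tools for the orders between 3640 and 6232
-/

set_option autoImplicit false
set_option linter.unusedSectionVars false

namespace Cfsg.Agent.Lib.SmallOrd.R3640

open Subgroup Cfsg.Agent.Lib.SmallOrd Cfsg.Agent.Lib.SmallOrd.PN Cfsg.Agent.Lib.Basic.SmallSimple
open Cfsg Cfsg.Agent.Lib.Char Cfsg.Agent.Lib.Blocks.Local

universe u

variable {G : Type u} [Group G] [Finite G]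

theorem not_comm_of_card [IsSimpleGroup G] (hnp : ¬ (Nat.card G).Prime) : ¬ IsMulCommutative G := by
  intro hc
  letI : CommGroup G := { (inferInstance : Group G) with mul_comm := hc.is_comm.comm }
  exact hnp IsSimpleGroup.prime_card

/-- A proper subgroup of a non-abelian simple group: the order of the group divides half the factorial of
the index. -/
theorem card_dvd_of_ne_top [IsSimpleGroup G] (hnp : ¬ (Nat.card G).Prime) (H : Subgroup G) (hH : H ≠ ⊤) :
    2 * Nat.card G ∣ H.index.factorial := by
  classical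
  obtain ⟨f, hf⟩ := Cfsg.Agent.S0991.result (not_comm_of_card hnp) H hH
  have h0 : H.index ≠ 0 := Subgroup.index_ne_zero_of_finite
  have h1 : H.index ≠ 1 := fun h => hH (Subgroup.index_eq_one.1 h)
  haveI : Nontrivial (Fin H.index) := Fin.nontrivial_iff_two_le.2 (by omega)
  have h2 := two_mul_nat_card_alternatingGroup (α := Fin H.index)
  rw [Nat.card_eq_fintype_card (α := Equiv.Perm (Fin H.index)), Fintype.card_perm, Fintype.card_fin] at h2
  have h3 : Nat.card G ∣ Nat.card (alternatingGroup (Fin H.index)) :=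
    Subgroup.card_dvd_of_injective f hf
  rw [← h2]
  exact Nat.mul_dvd_mul_left 2 h3

/-- The order divides half the factorial of the number of Sylow subgroups. -/
theorem card_dvd_of_sylow [IsSimpleGroup G] (hnp : ¬ (Nat.card G).Prime) {p : ℕ} [Fact p.Prime] (P : Sylow p G)
    (hP : (normalizer ((P : Subgroup G) : Set G)) ≠ ⊤) : 2 * Nat.card G ∣ (Nat.card (Sylow p G)).factorial := by
  have h := card_dvd_of_ne_top hnp _ hP
  have h2 : Nat.card (Sylow p G) = (normalizer ((P : Subgroup G) : Set G)).index := P.card_eq_index_normalizer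
  rwa [h2]

/-- `P` of order `p`, `P` is not normal. -/
theorem normalizer_ne_top_of_card [IsSimpleGroup G] {p : ℕ} [Fact p.Prime] (P : Sylow p G)
    (h1 : Nat.card (P : Subgroup G) ≠ 1) (h2 : Nat.card (P : Subgroup G) ≠ Nat.card G) :
    normalizer ((P : Subgroup G) : Set G) ≠ ⊤ := by
  intro h
  have hn : (P : Subgroup G).Normal := Subgroup.normalizer_eq_top_iff.1 h
  rcases hn.eq_bot_or_eq_top with h3 | h3
  · apply h1
    rw [h3]
    simp
  · apply h2
    rw [h3]
    simp

/-- A Sylow subgroup inside the normalizer of a Sylow subgroup is equal to it. -/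
theorem eq_of_le_normalizer' {p : ℕ} [hpf : Fact p.Prime] (P Q : Sylow p G)
    (h : (P : Subgroup G) ≤ normalizer ((Q : Subgroup G) : Set G)) : P = Q := by
  have h2 := P.isPGroup'.inf_normalizer_sylow Q
  have h3 : (P : Subgroup G) ≤ (Q : Subgroup G) := by
    intro t ht
    have h4 : t ∈ (P : Subgroup G) ⊓ normalizer ((Q : Subgroup G) : Set G) := ⟨ht, h ht⟩
    have h5 : t ∈ (P : Subgroup G) ⊓ (Q : Subgroup G) := by
      have h6 : (P : Subgroup G) ⊓ normalizer ((Q : Subgroup G) : Set G) = (P : Subgroup G) ⊓ (Q : Subgroup G) := h2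
      rwa [h6] at h4
    exact h5.2
  apply Sylow.ext
  apply Subgroup.eq_of_le_of_card_ge h3
  rw [Sylow.card_eq_multiplicity Q, Sylow.card_eq_multiplicity P]

/-- **Lemma C.** Let `P` be a Sylow `p`-subgroup of order `p`, with `1 + p r` Sylow subgroups, and `z` an
element of prime order `q > r`, `q ≠ p`, commuting with `P`. This is impossible in a simple group. -/
theorem false_of_commute [IsSimpleGroup G] {p q r : ℕ} [hpf : Fact p.Prime] (hq : q.Prime) (hqp : q ≠ p)
    (P : Sylow p G) (hP : Nat.card (P : Subgroup G) = p) (hN : Nat.card (Sylow p G) = 1 + p * r) (hr : r < q)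
    (hcard : p < Nat.card G) {z : G} (hz : orderOf z = q) (hzP : ∀ x ∈ (P : Subgroup G), z * x = x * z) : False := by
  classical
  have hpp : p.Prime := Fact.out
  -- an element of `P` fixing `Q ≠ P` is trivial
  have hfree : ∀ Q : Sylow p G, Q ≠ P → ∀ x ∈ (P : Subgroup G), x • Q = Q → x = 1 := by
    intro Q hQ x hx hxQ
    by_contra hx1
    have hPx : (P : Subgroup G) = zpowers x := by
      refine (Subgroup.eq_of_le_of_card_ge ((Subgroup.zpowers_le).2 hx) ?_).symm
      rw [hP]
      have h1 : orderOf (⟨x, hx⟩ : (P : Subgroup G)) ∣ Nat.card (P : Subgroup G) := orderOf_dvd_natCard _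
      rw [hP, Subgroup.orderOf_mk] at h1
      rcases (Nat.dvd_prime hpp).1 h1 with h2 | h2
      · exact absurd (orderOf_eq_one_iff.1 h2) hx1
      · rw [Nat.card_zpowers, h2]
    have hxN : x ∈ normalizer ((Q : Subgroup G) : Set G) := (Sylow.smul_eq_iff_mem_normalizer).1 hxQ
    have hle : (P : Subgroup G) ≤ normalizer ((Q : Subgroup G) : Set G) := by
      rw [hPx, Subgroup.zpowers_le]
      exact hxN
    exact hQ (eq_of_le_normalizer' P Q hle).symm
  have hzC : z ∈ centralizer ((P : Subgroup G) : Set G) := by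
    rw [mem_centralizer_iff]
    intro x hx
    exact (hzP x hx).symm
  have hzN : z ∈ normalizer ((P : Subgroup G) : Set G) := Subgroup.centralizer_le_normalizer _ hzC
  have hpowfix : ∀ (Q : Sylow p G) (g : G) (n : ℕ), g • Q = Q → g ^ n • Q = Q := by
    intro Q g n h
    exact (MulAction.mem_stabilizer_iff).1 (Subgroup.pow_mem _ ((MulAction.mem_stabilizer_iff).2 h) n)
  have hzq : z ^ q = 1 := by rw [← hz]; exact pow_orderOf_eq_one z
  have hcomm : ∀ (u : (P : Subgroup G)), Commute (u : G) z := fun u => (hzP u u.2).symm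
  -- `z` fixes every Sylow subgroup
  have hfix : ∀ Q : Sylow p G, z • Q = Q := by
    intro Q
    by_cases hQ : Q = P
    · subst hQ
      exact (Sylow.smul_eq_iff_mem_normalizer).2 hzN
    by_contra hzQ
    let Pt := ↥(P : Subgroup G)
    let φ : Pt × Fin q → {Q' : Sylow p G // Q' ≠ P} := fun a =>
      ⟨((a.1 : G) * z ^ (a.2 : ℕ)) • Q, by
        intro h
        have hmem : (a.1 : G) * z ^ (a.2 : ℕ) ∈ normalizer ((P : Subgroup G) : Set G) :=
          Subgroup.mul_mem _ (Subgroup.le_normalizer a.1.2) (Subgroup.pow_mem _ hzN _)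
        have h2 : ((a.1 : G) * z ^ (a.2 : ℕ)) • P = P := (Sylow.smul_eq_iff_mem_normalizer).2 hmem
        exact hQ (smul_left_cancel _ (h.trans h2.symm))⟩
    have hinj : Function.Injective φ := by
      rintro ⟨x, i⟩ ⟨y, j⟩ hxy
      have h1 : ((x : G) * z ^ (i : ℕ)) • Q = ((y : G) * z ^ (j : ℕ)) • Q := congrArg Subtype.val hxy
      set w : Pt := y⁻¹ * x with hw
      set k : ℤ := (i : ℤ) - (j : ℤ) with hk
      have hg : ((w : G) * z ^ k) • Q = Q := by
        have h2 : (w : G) * z ^ k = ((y : G) * z ^ (j : ℕ))⁻¹ * ((x : G) * z ^ (i : ℕ)) := by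
          have h3 : (w : G) = (y : G)⁻¹ * x := rfl
          have h4 : z ^ k = (z ^ (j : ℕ))⁻¹ * z ^ (i : ℕ) := by
            rw [hk, sub_eq_neg_add, zpow_add, zpow_neg, zpow_natCast, zpow_natCast]
          have h5 : Commute (x : G) ((z ^ (j : ℕ))⁻¹) := ((hcomm x).pow_right _).inv_right
          have h6 : Commute ((y : G)⁻¹) ((z ^ (j : ℕ))⁻¹) := ((hcomm y).pow_right _).inv_inv
          rw [h3, h4, mul_inv_rev]
          calc (y : G)⁻¹ * x * ((z ^ (j : ℕ))⁻¹ * z ^ (i : ℕ))
              = (y : G)⁻¹ * (x * (z ^ (j : ℕ))⁻¹) * z ^ (i : ℕ) := by group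
            _ = (y : G)⁻¹ * ((z ^ (j : ℕ))⁻¹ * x) * z ^ (i : ℕ) := by rw [h5.eq]
            _ = ((y : G)⁻¹ * (z ^ (j : ℕ))⁻¹) * x * z ^ (i : ℕ) := by simp only [mul_assoc]
            _ = ((z ^ (j : ℕ))⁻¹ * (y : G)⁻¹) * x * z ^ (i : ℕ) := by rw [h6.eq]
            _ = _ := by simp only [mul_assoc]
        rw [h2, mul_smul, h1, ← mul_smul, inv_mul_cancel, one_smul]
      -- raise to the power `q`
      have hc2 : Commute (w : G) (z ^ k) := (hcomm w).zpow_right k
      have h3 : ((w : G) * z ^ k) ^ q = (w : G) ^ q := by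
        rw [hc2.mul_pow, ← zpow_natCast (z ^ k), ← zpow_mul, mul_comm, zpow_mul, zpow_natCast, hzq, one_zpow, mul_one]
      have h4 : (w : G) ^ q • Q = Q := by
        rw [← h3]
        exact hpowfix Q _ q hg
      have h5 : (w : G) ^ q = 1 := hfree Q hQ _ ((P : Subgroup G).pow_mem w.2 q) h4
      have h6 : (w : G) = 1 := by
        have h7 : (w : G) ^ p = 1 := by
          have h8 : (w : Pt) ^ Nat.card (P : Subgroup G) = 1 := pow_card_eq_one'
          rw [hP] at h8
          calc (w : G) ^ p = ((w ^ p : Pt) : G) := (SubgroupClass.coe_pow w p).symm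
            _ = 1 := by rw [h8]; rfl
        have hcop : Nat.Coprime q p := (Nat.coprime_primes hq hpp).2 hqp
        have h9 : orderOf (w : G) ∣ 1 := by
          rw [← hcop.gcd_eq_one]
          exact Nat.dvd_gcd (orderOf_dvd_of_pow_eq_one h5) (orderOf_dvd_of_pow_eq_one h7)
        exact orderOf_eq_one_iff.1 (Nat.dvd_one.1 h9)
      rw [h6, one_mul] at hg
      have hk0 : k = 0 := by
        by_contra hk0
        have hnd : ¬ (q : ℤ) ∣ k := by
          intro hd
          apply hk0
          apply Int.eq_zero_of_abs_lt_dvd hd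
          have := i.2
          have := j.2
          rw [abs_lt]
          constructor <;> omega
        have hco : IsCoprime (q : ℤ) k := (Nat.prime_iff_prime_int.1 hq).irreducible.coprime_iff_not_dvd.2 hnd
        obtain ⟨a, b, hab⟩ := hco
        apply hzQ
        have h8 : z = (z ^ k) ^ b := by
          have h9 : z = z ^ (a * (q : ℤ) + b * k) := by rw [hab, zpow_one]
          rw [zpow_add, mul_comm a, zpow_mul, zpow_natCast, hzq, one_zpow, one_mul, mul_comm b, zpow_mul] at h9
          exact h9
        rw [h8]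
        exact (MulAction.mem_stabilizer_iff).1 (Subgroup.zpow_mem _ ((MulAction.mem_stabilizer_iff).2 hg) b)
      have hij : i = j := by
        apply Fin.ext
        omega
      have hxy' : x = y := by
        have h7 : y⁻¹ * x = 1 := Subtype.ext h6
        exact (inv_mul_eq_one.1 h7).symm
      rw [hij, hxy']
    have hle := Nat.card_le_card_of_injective φ hinj
    have hc1 : Nat.card (Pt × Fin q) = p * q := by
      rw [Nat.card_prod, Nat.card_fin]
      congr 1
    rw [hc1] at hle
    have hcardQ : Nat.card {Q' : Sylow p G // Q' ≠ P} = p * r := by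
      haveI : Fintype (Sylow p G) := Fintype.ofFinite _
      rw [Nat.card_eq_fintype_card, Fintype.card_subtype_compl, Fintype.card_subtype_eq,
        ← Nat.card_eq_fintype_card, hN]
      omega
    rw [hcardQ] at hle
    have := Nat.le_of_mul_le_mul_left hle hpp.pos
    omega
  -- the kernel of the action
  have hker : z ∈ (MulAction.toPermHom G (Sylow p G)).ker := by
    rw [MonoidHom.mem_ker]
    exact Equiv.ext fun Q => hfix Q
  have hz1 : z ≠ 1 := by
    intro h
    rw [h, orderOf_one] at hz
    exact hq.one_lt.ne hz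
  rcases (MonoidHom.normal_ker (MulAction.toPermHom G (Sylow p G))).eq_bot_or_eq_top with h | h
  · rw [h] at hker
    exact hz1 ((Subgroup.mem_bot).1 hker)
  · have hall : ∀ g : G, g • P = P := by
      intro g
      have h2 : g ∈ (MulAction.toPermHom G (Sylow p G)).ker := by rw [h]; exact mem_top g
      rw [MonoidHom.mem_ker] at h2
      exact congrArg (fun f : Equiv.Perm (Sylow p G) => f P) h2
    have hne := normalizer_ne_top_of_card P (by rw [hP]; exact hpp.one_lt.ne') (by rw [hP]; exact hcard.ne)
    apply hne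
    rw [eq_top_iff]
    intro g _
    exact (Sylow.smul_eq_iff_mem_normalizer).1 (hall g)

end Cfsg.Agent.Lib.SmallOrd.R3640
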