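import Mathlib
import Cfsg.Agent.Lib.SmallOrd.R3640.Common
import Cfsg.Agent.Lib.Perm.Order420

/-!
# A numerical certificate for a Sylow subgroup of prime order
-/

set_option autoImplicit false
set_option linter.unusedSectionVars false
set_option linter.unusedVariables false

namespace Cfsg.Agent.Lib.SmallOrd.R3640

open Subgroup Cfsg.Agent.Lib.SmallOrd Cfsg.Agent.Lib.SmallOrd.PN
open Cfsg Cfsg.Agent.Lib.Char Cfsg.Agent.Lib.Blocks.Local Cfsg.Agent.Lib.Blocks.Principal

universe u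

/-- A primality test by trial division. -/
def primeB (q : ℕ) : Bool :=
  decide (2 ≤ q) && (List.range q).all (fun d => decide (d < 2) || decide (q % d ≠ 0))

theorem primeB_sound {q : ℕ} (h : primeB q = true) : q.Prime := by
  simp only [primeB, Bool.and_eq_true, decide_eq_true_eq, List.all_eq_true, List.mem_range, Bool.or_eq_true,
    ne_eq] at h
  obtain ⟨h2, h⟩ := h
  rw [Nat.prime_def_lt]
  refine ⟨h2, fun m hm hd => ?_⟩
  rcases h m hm with h3 | h3
  · have h4 : m ≠ 0 := by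
      rintro rfl
      have := Nat.eq_zero_of_zero_dvd hd
      omega
    omega
  · exfalso
    exact h3 (Nat.mod_eq_zero_of_dvd hd)

/-- The list of divisors. -/
def divs (m : ℕ) : List ℕ := (List.range (m + 1)).filter (fun d => decide (d ∣ m))

theorem mem_divs {d m : ℕ} (hm : m ≠ 0) (h : d ∣ m) : d ∈ divs m := by
  unfold divs
  rw [List.mem_filter, List.mem_range]
  refine ⟨?_, by simpa using h⟩
  have := Nat.le_of_dvd (Nat.pos_of_ne_zero hm) h
  omega

theorem dvd_of_mem_divs {d m : ℕ} (h : d ∈ divs m) : d ∣ m := by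
  unfold divs at h
  rw [List.mem_filter] at h
  simpa using h.2

/-- Lemma C applies. -/
def lemCB (p n w : ℕ) : Bool := (divs w).any (fun q => primeB q && decide ((n - 1) / p < q))

/-- A possible degree in the principal block with a sign. -/
def condB (p w a : ℕ) (s : ℤ) : Bool :=
  decide (1 < a) && decide ((p : ℤ) ∣ (a : ℤ) - s) && (decide (w % 2 ≠ 0) || decide (2 * p ≤ a))

/-- A possible value for an exceptional degree. -/
def finalB (p m w : ℕ) (v : ℤ) : Bool :=
  decide (v.natAbs ∣ m) && decide (1 < v.natAbs) && (decide (w % 2 ≠ 0) || decide (2 * p ≤ v.natAbs))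

/-- No numerical solution for `e = 2`. -/
def twoOK (p m w : ℕ) : Bool :=
  (divs m).all fun a => [(1 : ℤ), -1].all fun s => !(condB p w a s && finalB p m w (1 + s * a))

/-- No numerical solution for `e = 3`. -/
def threeOK (p m w : ℕ) : Bool :=
  (divs m).all fun a => (divs m).all fun b => [(1 : ℤ), -1].all fun s => [(1 : ℤ), -1].all fun t =>
    !(condB p w a s && condB p w b t && finalB p m w (1 + s * a + t * b) &&
      decide ((p : ℤ) ∣ (1 + s * a + t * b) - 3))

/-- The parity argument applies. -/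
def parityOK (p m e w : ℕ) : Bool :=
  decide (w % 2 = 0) && (divs m).all fun d => decide (d < 2 * p) || decide (d % 2 = 0) ||
    !(decide ((p : ℤ) ∣ (d : ℤ) - 1) || decide ((p : ℤ) ∣ (d : ℤ) + 1) || decide ((p : ℤ) ∣ (d : ℤ) - e) ||
      decide ((p : ℤ) ∣ (d : ℤ) + e))

/-- The check of a triple `(n, e, w)`. -/
def caseOK (p m n e w : ℕ) : Bool :=
  lemCB p n w || (e == 2 && twoOK p m w) || (e == 3 && threeOK p m w) || parityOK p m e w

/-- The check of all triples, up to a residual relation. -/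
def triplesAll (p m : ℕ) (R : ℕ → ℕ → ℕ → Bool) : Bool :=
  (divs m).all fun n => (divs (p - 1)).all fun e =>
    decide (n % p ≠ 1) || decide (n = 1) || decide (e = 1) || decide (m % (n * e) ≠ 0) ||
      caseOK p m n e (m / (n * e)) || R n e (m / (n * e))

/-- The check of all triples. -/
def blockOK (p m : ℕ) : Bool := triplesAll p m (fun _ _ _ => false)

section Groups

variable {G : Type u} [Group G] [Fintype G] [IsSimpleGroup G] {p : ℕ} [hpf : Fact p.Prime]

/-- The data attached to a Sylow subgroup of prime order. -/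
theorem triple_data {m : ℕ} (hodd : p ≠ 2) (hN : Nat.card G = p * m) (hpm : ¬ p ∣ m) (hm : 1 < m) :
    commutator G = ⊤ ∧ ∃ (P : Sylow p G) (x : G) (M : Ideal AlgInt) (e w n : ℕ),
      Nat.card P = p ∧ x ∈ (P : Subgroup G) ∧ x ≠ 1 ∧ IsPModular p M ∧
      (Subgroup.centralizer ((P : Subgroup G) : Set G)).relIndex (Subgroup.normalizer ((P : Subgroup G) : Set G)) = e ∧
      e ∣ p - 1 ∧ e ≠ 0 ∧ e ≠ 1 ∧ Nat.card (Sylow p G) = n ∧ n % p = 1 ∧ n ≠ 1 ∧ m = w * e * n ∧
      Nat.card (Subgroup.centralizer ((P : Subgroup G) : Set G)) = p * w ∧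
      (∀ y : G, y ∈ Subgroup.centralizer ((P : Subgroup G) : Set G) ↔ Commute y x) := by
  have hpp : p.Prime := Fact.out
  obtain ⟨hperf, P, x, M, e, hP, hx, hx1, hM, hrel, hep, he0, he1, hNC, hNn, hn, hCx, hPC⟩ :=
    setup (p := p) (m := m) hodd hN hpm hm
  refine ⟨hperf, ?_⟩
  obtain ⟨w, hw⟩ : p ∣ Nat.card (Subgroup.centralizer ((P : Subgroup G) : Set G)) := by
    have h1 : Nat.card (P : Subgroup G) ∣ Nat.card (Subgroup.centralizer ((P : Subgroup G) : Set G)) :=
      Subgroup.card_dvd_of_le hPC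
    rwa [show Nat.card (P : Subgroup G) = p from hP] at h1
  have hmw : m = w * e * Nat.card (Sylow p G) := by
    rw [hNC, hw, hN] at hNn
    apply Nat.eq_of_mul_eq_mul_left hpp.pos
    rw [← hNn]
    ring
  have hn1 : Nat.card (Sylow p G) ≠ 1 := by
    intro h1
    rw [h1, mul_one] at hNn
    have hne := normalizer_ne_top_of_card P (by rw [show Nat.card (P : Subgroup G) = p from hP]; exact hpp.one_lt.ne')
      (by
        rw [show Nat.card (P : Subgroup G) = p from hP, hN]
        have : p * 1 < p * m := Nat.mul_lt_mul_of_pos_left hm hpp.pos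
        omega)
    exact hne (Subgroup.eq_top_of_card_eq _ hNn)
  exact ⟨P, x, M, e, w, _, hP, hx, hx1, hM, hrel, hep, he0, he1, rfl, hn, hn1, hmw, hw, hCx⟩

theorem false_of_lemCB {m n w : ℕ} (P : Sylow p G) (hP : Nat.card P = p) (hpm : ¬ p ∣ m) (hN : Nat.card G = p * m)
    (hm : 1 < m) (hn : Nat.card (Sylow p G) = n) (hnp : n % p = 1) (hwm : w ∣ m)
    (hCc : Nat.card (centralizer ((P : Subgroup G) : Set G)) = p * w) (hc : lemCB p n w = true) : False := by
  have hpp : p.Prime := Fact.out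
  unfold lemCB at hc
  rw [List.any_eq_true] at hc
  obtain ⟨q, hq, hq2⟩ := hc
  rw [Bool.and_eq_true, decide_eq_true_eq] at hq2
  have hqp := primeB_sound hq2.1
  have hqw := dvd_of_mem_divs hq
  have hqm := hqw.trans hwm
  have hne : q ≠ p := by
    rintro rfl
    exact hpm hqm
  haveI : Fact q.Prime := ⟨hqp⟩
  obtain ⟨z, hz⟩ : ∃ z : centralizer ((P : Subgroup G) : Set G), orderOf z = q :=
    exists_prime_orderOf_dvd_card' q (by rw [hCc]; exact hqw.trans (dvd_mul_left _ _))
  have hn' : Nat.card (Sylow p G) = 1 + p * ((n - 1) / p) := by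
    have h1 := Nat.div_add_mod n p
    rw [hnp] at h1
    have h2 : n - 1 = p * (n / p) := by omega
    rw [h2, Nat.mul_div_cancel_left _ hpp.pos, hn]
    omega
  refine false_of_commute hqp hne P hP hn' hq2.2 ?_ (z := (z : G)) (by simpa using hz) ?_
  · rw [hN]
    have : p * 1 < p * m := Nat.mul_lt_mul_of_pos_left hm hpp.pos
    omega
  · intro y hy
    exact (mem_centralizer_iff.1 z.2 y hy).symm

variable {M : Ideal AlgInt} {P : Sylow p G} {e : ℕ}

theorem deg_props (D : BData p M P e) (hM : IsPModular p M) (hodd : p ≠ 2) (hperf : commutator G = ⊤)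
    (hP : Nat.card P = p) {x : G} (hx : x ∈ (P : Subgroup G)) (hx1 : x ≠ 1) {m w : ℕ} (hm : Nat.card G = p * m)
    (he : e ∣ p - 1) (he0 : e ≠ 0) (hCc : Nat.card (centralizer ((P : Subgroup G) : Set G)) = p * w)
    (χ : IrrCharacter G) (hχ : χ ∈ D.X ∨ χ ∈ D.Y) (hne : χ ≠ trivChar G) :
    charDegree (χ : G → ℂ) ∣ m ∧ 1 < charDegree (χ : G → ℂ) ∧ (w % 2 ≠ 0 ∨ 2 * p ≤ charDegree (χ : G → ℂ)) := by
  refine ⟨D.degree_dvd_m hodd hm he he0 χ hχ, BrauerSCNum.one_lt_degree hperf χ hne _ (apply_one χ), ?_⟩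
  by_cases hw : w % 2 = 0
  · right
    haveI : Fact (Nat.Prime 2) := ⟨Nat.prime_two⟩
    obtain ⟨z, hz⟩ : ∃ z : centralizer ((P : Subgroup G) : Set G), orderOf z = 2 :=
      exists_prime_orderOf_dvd_card' 2 (by rw [hCc]; exact (Nat.dvd_of_mod_eq_zero hw).trans (dvd_mul_left _ _))
    exact D.even_bound hM hodd hperf hP hx hx1 z.2 (by simpa using hz) χ hχ (fun h => hne (Subtype.ext h))
  · exact Or.inl hw

theorem natAbs_of_sign {ε v : ℤ} {d : ℕ} (hε : ε = 1 ∨ ε = -1) (h : ε * (d : ℤ) = v) : v.natAbs = d := by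
  rcases hε with rfl | rfl <;> rw [← h] <;> simp

theorem false_of_twoOK (D : BData p M P 2) (hM : IsPModular p M) (hodd : p ≠ 2) (h3 : p ≠ 3)
    (hperf : commutator G = ⊤)
    (hP : Nat.card P = p) {x : G} (hx : x ∈ (P : Subgroup G)) (hx1 : x ≠ 1) {m w : ℕ} (hm : Nat.card G = p * m)
    (he : 2 ∣ p - 1) (hCc : Nat.card (centralizer ((P : Subgroup G) : Set G)) = p * w)
    (hm0 : m ≠ 0) (hc : twoOK p m w = true) : False := by
  obtain ⟨χ₁, θ, hχ₁, hθne, hX, hθ, hs1, hs2, hd, hD, hd1, hD1, hdc, hDc, hrel, -⟩ :=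
    D.two_degrees hM hodd h3 hperf hm he
  have h1X : χ₁ ∈ D.X := by rw [hX]; simp
  have hp1 := deg_props D hM hodd hperf hP hx hx1 hm he (by norm_num) hCc χ₁ (Or.inl h1X) hχ₁
  have hp2 := deg_props D hM hodd hperf hP hx hx1 hm he (by norm_num) hCc θ (Or.inr hθ) hθne
  unfold twoOK at hc
  rw [List.all_eq_true] at hc
  have h2 := hc _ (mem_divs hm0 hd)
  rw [List.all_eq_true] at h2
  have h4 := h2 (D.εX χ₁) (by rcases hs1 with h | h <;> simp [h])
  have h5 : condB p w (charDegree (χ₁ : G → ℂ)) (D.εX χ₁) = true := by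
    simp only [condB, Bool.and_eq_true, Bool.or_eq_true, decide_eq_true_eq]
    exact ⟨⟨hp1.2.1, Int.modEq_iff_dvd.1 hdc.symm⟩, hp1.2.2⟩
  have hv := natAbs_of_sign hs2 hrel
  have h6 : finalB p m w (1 + D.εX χ₁ * (charDegree (χ₁ : G → ℂ) : ℤ)) = true := by
    simp only [finalB, Bool.and_eq_true, Bool.or_eq_true, decide_eq_true_eq]
    rw [hv]
    exact ⟨⟨hp2.1, hp2.2.1⟩, hp2.2.2⟩
  rw [h5, h6] at h4
  simp at h4

theorem false_of_threeOK (D : BData p M P 3) (hM : IsPModular p M) (hodd : p ≠ 2)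
    (hperf : commutator G = ⊤)
    (hP : Nat.card P = p) {x : G} (hx : x ∈ (P : Subgroup G)) (hx1 : x ≠ 1) {m w : ℕ} (hm : Nat.card G = p * m)
    (he : 3 ∣ p - 1) (hCc : Nat.card (centralizer ((P : Subgroup G) : Set G)) = p * w)
    (hm0 : m ≠ 0) (hc : threeOK p m w = true) : False := by
  classical
  have hpp : p.Prime := Fact.out
  have ht : trivChar G ∈ D.X := by
    rcases D.trivChar_mem hM with h | h
    · exact h
    · exfalso
      have h1 := D.degY _ h
      rw [charDegree_trivChar] at h1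
      have h2 := Int.modEq_iff_dvd.1 h1
      have h3 : ¬ p ∣ 2 := fun h => hodd ((Nat.prime_dvd_prime_iff_eq hpp Nat.prime_two).1 h)
      rcases D.sign with h4 | h4 <;> rw [h4] at h2
      · have h5 : (p : ℤ) ∣ 2 := by simpa using h2
        exact h3 (by exact_mod_cast h5)
      · have h5 : (p : ℤ) ∣ 4 := by
          have := (dvd_neg).2 h2
          simpa using this
        have h6 : p ∣ 2 ^ 2 := by
          have : p ∣ 4 := by exact_mod_cast h5
          simpa using this
        exact h3 (hpp.dvd_of_dvd_pow h6)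
  have hcard2 : (D.X.erase (trivChar G)).card = 2 := by
    rw [Finset.card_erase_of_mem ht, D.cardX]
  obtain ⟨a, b, hab, hXe⟩ := Finset.card_eq_two.1 hcard2
  have hX : D.X = insert (trivChar G) {a, b} := by
    rw [← hXe, Finset.insert_erase ht]
  have ha1 : a ≠ trivChar G := by
    have : a ∈ D.X.erase (trivChar G) := by rw [hXe]; simp
    exact (Finset.mem_erase.1 this).1
  have hb1 : b ≠ trivChar G := by
    have : b ∈ D.X.erase (trivChar G) := by rw [hXe]; simp
    exact (Finset.mem_erase.1 this).1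
  have haX : a ∈ D.X := by rw [hX]; simp
  have hbX : b ∈ D.X := by rw [hX]; simp
  have hYc : D.Y.Nonempty := by
    apply Finset.card_pos.1
    rw [D.cardY]
    have h1 : 3 ≤ p - 1 := Nat.le_of_dvd (by have := hpp.two_le; have := hpp.ne_one; omega) he
    · exact Nat.div_pos h1 (by norm_num)
  obtain ⟨θ, hθ⟩ := hYc
  have hθne : θ ≠ trivChar G := by
    rintro rfl
    exact Finset.disjoint_left.1 D.disj ht hθ
  have hε1 := D.εX_trivChar hodd ht
  have hp1 := deg_props D hM hodd hperf hP hx hx1 hm he (by norm_num) hCc a (Or.inl haX) ha1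
  have hp2 := deg_props D hM hodd hperf hP hx hx1 hm he (by norm_num) hCc b (Or.inl hbX) hb1
  have hp3 := deg_props D hM hodd hperf hP hx hx1 hm he (by norm_num) hCc θ (Or.inr hθ) hθne
  have hrel := D.sum_degree hθ
  rw [hX, Finset.sum_insert (by simp [ha1.symm, hb1.symm]), Finset.sum_pair hab, hε1, charDegree_trivChar] at hrel
  have hv := natAbs_of_sign D.sign (hrel.trans (show _ = 1 + D.εX a * (charDegree (a : G → ℂ) : ℤ) +
    D.εX b * (charDegree (b : G → ℂ) : ℤ) by push_cast; ring))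
  unfold threeOK at hc
  rw [List.all_eq_true] at hc
  have h2 := hc _ (mem_divs hm0 hp1.1)
  rw [List.all_eq_true] at h2
  have h2' := h2 _ (mem_divs hm0 hp2.1)
  rw [List.all_eq_true] at h2'
  have h4 := h2' (D.εX a) (by rcases D.signX a haX with h | h <;> simp [h])
  rw [List.all_eq_true] at h4
  have h4' := h4 (D.εX b) (by rcases D.signX b hbX with h | h <;> simp [h])
  have h5 : condB p w (charDegree (a : G → ℂ)) (D.εX a) = true := by
    simp only [condB, Bool.and_eq_true, Bool.or_eq_true, decide_eq_true_eq]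
    exact ⟨⟨hp1.2.1, Int.modEq_iff_dvd.1 (D.degX a haX).symm⟩, hp1.2.2⟩
  have h5b : condB p w (charDegree (b : G → ℂ)) (D.εX b) = true := by
    simp only [condB, Bool.and_eq_true, Bool.or_eq_true, decide_eq_true_eq]
    exact ⟨⟨hp2.2.1, Int.modEq_iff_dvd.1 (D.degX b hbX).symm⟩, hp2.2.2⟩
  have h6 : finalB p m w (1 + D.εX a * (charDegree (a : G → ℂ) : ℤ) + D.εX b * (charDegree (b : G → ℂ) : ℤ)) = true := by
    simp only [finalB, Bool.and_eq_true, Bool.or_eq_true, decide_eq_true_eq]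
    rw [hv]
    exact ⟨⟨hp3.1, hp3.2.1⟩, hp3.2.2⟩
  have h7 : (p : ℤ) ∣ (1 + D.εX a * (charDegree (a : G → ℂ) : ℤ) + D.εX b * (charDegree (b : G → ℂ) : ℤ)) - 3 := by
    have h8 := Int.modEq_iff_dvd.1 (D.degY θ hθ).symm
    have h9 : (1 + D.εX a * (charDegree (a : G → ℂ) : ℤ) + D.εX b * (charDegree (b : G → ℂ) : ℤ)) - 3 =
        D.ε * ((charDegree (θ : G → ℂ) : ℤ) - D.ε * (3 : ℕ)) := by
      have h10 : D.ε * D.ε = 1 := by rcases D.sign with h | h <;> rw [h] <;> norm_num
      have h11 : D.ε * (charDegree (θ : G → ℂ) : ℤ) = 1 + D.εX a * (charDegree (a : G → ℂ) : ℤ) +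
          D.εX b * (charDegree (b : G → ℂ) : ℤ) := by
        rw [hrel]
        ring
      push_cast
      linear_combination (-1 : ℤ) * h11 + 3 * h10
    rw [h9]
    exact Dvd.dvd.mul_left h8 _
  rw [h5, h5b, h6, decide_eq_true h7] at h4'
  simp at h4'

theorem false_of_parityOK (D : BData p M P e) (hM : IsPModular p M) (hodd : p ≠ 2) (hperf : commutator G = ⊤)
    (hP : Nat.card P = p) {x : G} (hx : x ∈ (P : Subgroup G)) (hx1 : x ≠ 1) {m w : ℕ} (hm : Nat.card G = p * m)
    (he : e ∣ p - 1) (he0 : e ≠ 0) (hCc : Nat.card (centralizer ((P : Subgroup G) : Set G)) = p * w)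
    (hm0 : m ≠ 0) (hc : parityOK p m e w = true) : False := by
  unfold parityOK at hc
  rw [Bool.and_eq_true, decide_eq_true_eq, List.all_eq_true] at hc
  obtain ⟨hw, hc⟩ := hc
  haveI : Fact (Nat.Prime 2) := ⟨Nat.prime_two⟩
  obtain ⟨z, hz⟩ : ∃ z : centralizer ((P : Subgroup G) : Set G), orderOf z = 2 :=
    exists_prime_orderOf_dvd_card' 2 (by rw [hCc]; exact (Nat.dvd_of_mod_eq_zero hw).trans (dvd_mul_left _ _))
  refine D.false_of_parity hM hodd hperf hP hx hx1 z.2 (by simpa using hz) hm he he0 ?_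
  intro d hd h2d hcong
  have h1 := hc d (mem_divs hm0 hd)
  simp only [Bool.or_eq_true, Bool.not_eq_true', decide_eq_true_eq, Bool.or_eq_false_iff, decide_eq_false_iff_not] at h1
  rcases h1 with (h1 | h1) | h1
  · omega
  · exact Nat.even_iff.2 h1
  · exfalso
    obtain ⟨⟨⟨h3, h4⟩, h5⟩, h6⟩ := h1
    rcases hcong with h | h | h | h
    · exact h3 (Int.modEq_iff_dvd.1 h.symm)
    · apply h4
      have := Int.modEq_iff_dvd.1 h.symm
      simpa using this
    · exact h5 (Int.modEq_iff_dvd.1 h.symm)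
    · apply h6
      have := Int.modEq_iff_dvd.1 h.symm
      simpa using this

/-- A triple passing the check is impossible. -/
theorem false_of_caseOK {m n w : ℕ} (hodd : p ≠ 2) (h3 : p ≠ 3) (hN : Nat.card G = p * m) (hpm : ¬ p ∣ m)
    (hm : 1 < m) (hperf : commutator G = ⊤) (hP : Nat.card P = p) {x : G} (hx : x ∈ (P : Subgroup G)) (hx1 : x ≠ 1)
    (hM : IsPModular p M)
    (hrel : (Subgroup.centralizer ((P : Subgroup G) : Set G)).relIndex (Subgroup.normalizer ((P : Subgroup G) : Set G)) = e)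
    (hep : e ∣ p - 1) (he0 : e ≠ 0) (hn : Nat.card (Sylow p G) = n) (hnp : n % p = 1) (hwm : w ∣ m)
    (hCc : Nat.card (centralizer ((P : Subgroup G) : Set G)) = p * w) (hc : caseOK p m n e w = true) : False := by
  have hm0 : m ≠ 0 := by omega
  simp only [caseOK, Bool.or_eq_true, Bool.and_eq_true, beq_iff_eq] at hc
  rcases hc with ((h | ⟨rfl, h⟩) | ⟨rfl, h⟩) | h
  · exact false_of_lemCB P hP hpm hN hm hn hnp hwm hCc h
  · obtain ⟨D⟩ := exists_data hM hodd P hP 2 hrel
    exact false_of_twoOK D hM hodd h3 hperf hP hx hx1 hN hep hCc hm0 h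
  · obtain ⟨D⟩ := exists_data hM hodd P hP 3 hrel
    exact false_of_threeOK D hM hodd hperf hP hx hx1 hN hep hCc hm0 h
  · obtain ⟨D⟩ := exists_data hM hodd P hP e hrel
    exact false_of_parityOK D hM hodd hperf hP hx hx1 hN hep he0 hCc hm0 h

/-- The triple of a Sylow subgroup of prime order fails the check. -/
theorem triple_cases {m : ℕ} (hodd : p ≠ 2) (h3 : p ≠ 3) (hN : Nat.card G = p * m) (hpm : ¬ p ∣ m) (hm : 1 < m) :
    ∃ (P : Sylow p G) (x : G) (e w n : ℕ),
      Nat.card P = p ∧ x ∈ (P : Subgroup G) ∧ x ≠ 1 ∧ e ∣ p - 1 ∧ e ≠ 0 ∧ e ≠ 1 ∧ Nat.card (Sylow p G) = n ∧ n % p = 1 ∧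
      n ≠ 1 ∧ m = w * e * n ∧ Nat.card (Subgroup.centralizer ((P : Subgroup G) : Set G)) = p * w ∧
      (∀ y : G, y ∈ Subgroup.centralizer ((P : Subgroup G) : Set G) ↔ Commute y x) ∧
      caseOK p m n e w = false := by
  obtain ⟨hperf, P, x, M, e, w, n, hP, hx, hx1, hM, hrel, hep, he0, he1, hn, hnp, hn1, hmw, hCc, hCx⟩ :=
    triple_data hodd hN hpm hm
  refine ⟨P, x, e, w, n, hP, hx, hx1, hep, he0, he1, hn, hnp, hn1, hmw, hCc, hCx, ?_⟩
  by_contra hc
  rw [Bool.not_eq_false] at hc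
  exact false_of_caseOK hodd h3 hN hpm hm hperf hP hx hx1 hM hrel hep he0 hn hnp ⟨e * n, by rw [hmw]; ring⟩ hCc hc

/-- The residual triples. -/
theorem exists_triple {m : ℕ} (R : ℕ → ℕ → ℕ → Bool) (hodd : p ≠ 2) (h3 : p ≠ 3) (hN : Nat.card G = p * m)
    (hpm : ¬ p ∣ m) (hm : 1 < m) (hc : triplesAll p m R = true) :
    ∃ (P : Sylow p G) (x : G) (e w n : ℕ),
      Nat.card P = p ∧ x ∈ (P : Subgroup G) ∧ x ≠ 1 ∧ e ∣ p - 1 ∧ e ≠ 0 ∧ e ≠ 1 ∧ Nat.card (Sylow p G) = n ∧ n % p = 1 ∧
      n ≠ 1 ∧ m = w * e * n ∧ Nat.card (Subgroup.centralizer ((P : Subgroup G) : Set G)) = p * w ∧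
      (∀ y : G, y ∈ Subgroup.centralizer ((P : Subgroup G) : Set G) ↔ Commute y x) ∧
      R n e w = true := by
  have hpp : p.Prime := Fact.out
  obtain ⟨P, x, e, w, n, hP, hx, hx1, hep, he0, he1, hn, hnp, hn1, hmw, hCc, hCx, hf⟩ :=
    triple_cases hodd h3 hN hpm hm
  refine ⟨P, x, e, w, n, hP, hx, hx1, hep, he0, he1, hn, hnp, hn1, hmw, hCc, hCx, ?_⟩
  have hm0 : m ≠ 0 := by omega
  have hp1 : p - 1 ≠ 0 := by
    have := hpp.two_le
    omega
  unfold triplesAll at hc
  rw [List.all_eq_true] at hc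
  have h1 := hc n (mem_divs hm0 ⟨w * e, by rw [hmw]; ring⟩)
  rw [List.all_eq_true] at h1
  have h2 := h1 e (mem_divs hp1 hep)
  have hne : n * e ≠ 0 := by
    apply Nat.mul_ne_zero
    · rintro rfl
      omega
    · exact he0
  have hw : m / (n * e) = w := by
    apply Nat.div_eq_of_eq_mul_left (Nat.pos_of_ne_zero hne)
    rw [hmw]
    ring
  have hmod : m % (n * e) = 0 := Nat.mod_eq_zero_of_dvd ⟨w, by rw [hmw]; ring⟩
  simp only [Bool.or_eq_true, decide_eq_true_eq] at h2
  rw [hw] at h2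
  rcases h2 with ((((h | h) | h) | h) | h) | h
  · exact absurd hnp h
  · exact absurd h hn1
  · exact absurd h he1
  · exact absurd hmod h
  · rw [hf] at h
    exact absurd h Bool.false_ne_true
  · exact h

/-- The certificate. -/
theorem false_of_blockOK {m : ℕ} (hodd : p ≠ 2) (h3 : p ≠ 3) (hN : Nat.card G = p * m) (hpm : ¬ p ∣ m) (hm : 1 < m)
    (hc : blockOK p m = true) : False := by
  obtain ⟨-, -, -, -, -, -, -, -, -, -, -, -, -, -, -, -, -, -, h⟩ := exists_triple _ hodd h3 hN hpm hm hc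

end Groups

/-- The certificate, for a finite group. -/
theorem false_of_block {G : Type u} [Group G] [Finite G] [IsSimpleGroup G] {p m : ℕ} (hp : p.Prime) (hodd : p ≠ 2)
    (h3 : p ≠ 3) (hN : Nat.card G = p * m) (hpm : ¬ p ∣ m) (hm : 1 < m) (hc : blockOK p m = true) : False := by
  cases nonempty_fintype G
  haveI : Fact p.Prime := ⟨hp⟩
  exact false_of_blockOK hodd h3 hN hpm hm hc

/-- A prime `q` dividing the centralizer of a subgroup of order `p`. -/
theorem dvd_w_of_commute {G : Type u} [Group G] [Finite G] {p q w : ℕ} [hpf : Fact p.Prime] (hq : q.Prime)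
    (P : Sylow p G) (hP : Nat.card P = p) {z y : G} (hz : orderOf z = p) (hy : orderOf y = q) (hne : q ≠ p)
    (hc : Commute y z) (hCc : Nat.card (centralizer ((P : Subgroup G) : Set G)) = p * w) : q ∣ w := by
  have hpp : p.Prime := Fact.out
  obtain ⟨u, hu, huc⟩ := Cfsg.Agent.Lib.Perm.Order420.exists_conj_mem_sylow (k := 1) P (v := z) (by simpa using hz)
  obtain ⟨g, hg⟩ := isConj_iff.1 huc
  have hu1 : u ≠ 1 := by
    rintro rfl
    have h1 : z = 1 := by rw [← hg]; simp
    rw [h1, orderOf_one] at hz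
    exact hpp.one_lt.ne hz
  have hPu : (P : Subgroup G) = zpowers u := by
    refine (Subgroup.eq_of_le_of_card_ge ((Subgroup.zpowers_le).2 hu) ?_).symm
    rw [show Nat.card (P : Subgroup G) = p from hP]
    have h1 : orderOf (⟨u, hu⟩ : (P : Subgroup G)) ∣ Nat.card (P : Subgroup G) := orderOf_dvd_natCard _
    rw [show Nat.card (P : Subgroup G) = p from hP, Subgroup.orderOf_mk] at h1
    rcases (Nat.dvd_prime hpp).1 h1 with h2 | h2
    · exact absurd (orderOf_eq_one_iff.1 h2) hu1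
    · rw [Nat.card_zpowers, h2]
  have hcomm : Commute (g⁻¹ * y * g) u := by
    have h1 : Commute (g⁻¹ * y * g) (g⁻¹ * z * g) := by
      rw [Commute, SemiconjBy]
      have h2 : y * z = z * y := hc
      calc g⁻¹ * y * g * (g⁻¹ * z * g) = g⁻¹ * (y * z) * g := by group
        _ = g⁻¹ * (z * y) * g := by rw [h2]
        _ = _ := by group
    have h3 : g⁻¹ * z * g = u := by rw [← hg]; group
    rwa [h3] at h1
  have hmem : g⁻¹ * y * g ∈ centralizer ((P : Subgroup G) : Set G) := by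
    rw [mem_centralizer_iff]
    intro t ht
    rw [SetLike.mem_coe, hPu] at ht
    obtain ⟨k, rfl⟩ := mem_zpowers_iff.1 ht
    exact ((Commute.zpow_right hcomm k)).symm.eq
  have hord : orderOf (⟨g⁻¹ * y * g, hmem⟩ : centralizer ((P : Subgroup G) : Set G)) = q := by
    rw [Subgroup.orderOf_mk, ← hy]
    have : g⁻¹ * y * g = MulAut.conj g⁻¹ y := by simp [MulAut.conj_apply]
    rw [this]
    exact MulEquiv.orderOf_eq _ _
  have h1 : q ∣ p * w := by
    rw [← hCc]
    have h2 := orderOf_dvd_natCard (⟨g⁻¹ * y * g, hmem⟩ : centralizer ((P : Subgroup G) : Set G))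
    rwa [hord] at h2
  exact ((Nat.Prime.coprime_iff_not_dvd hq).2 (fun h => hne ((Nat.prime_dvd_prime_iff_eq hq hpp).1 h))).dvd_of_dvd_mul_left h1

end Cfsg.Agent.Lib.SmallOrd.R3640
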