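import Mathlib
import Cfsg.Agent.Lib.SmallOrd.R3640.Block
import Cfsg.Agent.S0999
import Cfsg.Agent.S0904
import Cfsg.Agent.Lib.PSL2.Basic
import Cfsg.Agent.Lib.NSE.Basic

/-!
# Some orders between 3640 and 6232
-/

set_option autoImplicit false
set_option linter.unusedSectionVars false
set_option linter.unusedVariables false

namespace Cfsg.Agent.Lib.SmallOrd.R3640

open Subgroup Cfsg.Agent.Lib.SmallOrd Cfsg.Agent.Lib.SmallOrd.PN
open Cfsg Cfsg.Agent.Lib.Char Cfsg.Agent.Lib.Blocks.Local

universe u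

variable {G : Type u} [Group G] [Finite G]

theorem card_sylow_pow {p a m : ℕ} [hpf : Fact p.Prime] (hN : Nat.card G = p ^ a * m) (hpm : ¬ p ∣ m) (P : Sylow p G) :
    Nat.card (P : Subgroup G) = p ^ a := by
  have hp : p.Prime := Fact.out
  have hm0 : m ≠ 0 := by
    rintro rfl
    exact hpm (dvd_zero _)
  rw [Sylow.card_eq_multiplicity P, hN, Nat.factorization_mul (pow_ne_zero _ hp.ne_zero) hm0, Finsupp.add_apply,
    Nat.Prime.factorization_pow hp, Finsupp.single_eq_same, Nat.factorization_eq_zero_of_not_dvd hpm, add_zero]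

variable [IsSimpleGroup G]

/-- Arithmetic of the Sylow numbers and the index. -/
theorem false_of_sylow_index {p a m : ℕ} (hp : p.Prime) (ha : a ≠ 0) (hN : Nat.card G = p ^ a * m) (hpm : ¬ p ∣ m)
    (hm : 1 < m) (hc : ∀ d ∈ divs m, d % p = 1 % p → d ≠ 1 → ¬ (2 * (p ^ a * m) ∣ d.factorial)) : False := by
  haveI : Fact p.Prime := ⟨hp⟩
  obtain ⟨P⟩ : Nonempty (Sylow p G) := inferInstance
  have hPc := card_sylow_pow hN hpm P
  have hpa : 1 < p ^ a := Nat.one_lt_pow ha hp.one_lt
  have hnp : ¬ (Nat.card G).Prime := by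
    rw [hN]
    exact Nat.not_prime_mul (by omega) (by omega)
  have hne := normalizer_ne_top_of_card P (by rw [hPc]; omega) (by
    rw [hPc, hN]
    have : p ^ a * 1 < p ^ a * m := Nat.mul_lt_mul_of_pos_left hm (by omega)
    omega)
  have hd := card_dvd_of_sylow hnp P hne
  rw [hN] at hd
  have hidxP : (P : Subgroup G).index = m := by
    have h1 := Subgroup.card_mul_index (P : Subgroup G)
    rw [hPc, hN] at h1
    exact Nat.eq_of_mul_eq_mul_left (by omega) h1
  have hidx : Nat.card (Sylow p G) ∣ m := by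
    rw [P.card_eq_index_normalizer, ← hidxP]
    exact Subgroup.index_dvd_of_le Subgroup.le_normalizer
  have hn1 : Nat.card (Sylow p G) ≠ 1 := by
    intro h1
    rw [P.card_eq_index_normalizer] at h1
    exact hne (Subgroup.index_eq_one.1 h1)
  exact hc _ (mem_divs (by omega) hidx) (card_sylow_modEq_one p G) hn1 hd

theorem no_3920 (h : Nat.card G = 3920) : False :=
  false_of_sylow_index (p := 7) (a := 2) (m := 80) (by norm_num) (by norm_num) (h.trans (by norm_num)) (by norm_num)
    (by norm_num) (by decide +kernel)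

theorem no_4840 (h : Nat.card G = 4840) : False :=
  false_of_sylow_index (p := 11) (a := 2) (m := 40) (by norm_num) (by norm_num) (h.trans (by norm_num)) (by norm_num)
    (by norm_num) (by decide +kernel)

theorem no_4536 (h : Nat.card G = 4536) : False := by
  haveI : Fact (Nat.Prime 7) := ⟨by norm_num⟩
  exact Cfsg.Agent.Lib.Perm.Order420.false_of_selfcent (p := 7) (m := 648) (h.trans (by norm_num)) (by norm_num)
    (by norm_num)
    (fun S => Cfsg.Agent.S0904.result 2 3 7 3 4 (by norm_num) (by norm_num) (by norm_num) (by norm_num) (by norm_num)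
      (by rw [h]; norm_num) S)
    (by decide +kernel)

/-- An element of a subgroup of prime order, different from `1`, has order the prime. -/
theorem orderOf_of_mem {p : ℕ} (hp : p.Prime) {P : Subgroup G} (hP : Nat.card P = p) {x : G} (hx : x ∈ P) (hx1 : x ≠ 1) :
    orderOf x = p := by
  have h1 : orderOf (⟨x, hx⟩ : P) ∣ p := by
    rw [← hP]
    exact orderOf_dvd_natCard _
  rw [Subgroup.orderOf_mk] at h1
  rcases (Nat.dvd_prime hp).1 h1 with h2 | h2
  · exact absurd (orderOf_eq_one_iff.1 h2) hx1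
  · exact h2

theorem no_3780 (h : Nat.card G = 3780) : False := by
  cases nonempty_fintype G
  haveI : Fact (Nat.Prime 5) := ⟨by norm_num⟩
  haveI : Fact (Nat.Prime 7) := ⟨by norm_num⟩
  obtain ⟨P7, x7, e7, w7, n7, hP7, hx7, hx71, -, -, -, -, -, -, -, hCc7, hCx7, hR7⟩ :=
    exists_triple (p := 7) (m := 540) (fun _ _ w => decide (5 ∣ w)) (by norm_num) (by norm_num)
      (h.trans (by norm_num)) (by norm_num) (by norm_num) (by decide +kernel)
  obtain ⟨P5, x5, e5, w5, n5, hP5, hx5, hx51, -, -, -, -, -, -, -, hCc5, hCx5, hR5⟩ :=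
    exists_triple (p := 5) (m := 756) (fun _ _ w => !decide (7 ∣ w)) (by norm_num) (by norm_num)
      (h.trans (by norm_num)) (by norm_num) (by norm_num) (by decide +kernel)
  have h5 : 5 ∣ w7 := by simpa using hR7
  obtain ⟨z, hz⟩ : ∃ z : centralizer ((P7 : Subgroup G) : Set G), orderOf z = 5 :=
    exists_prime_orderOf_dvd_card' 5 (by rw [hCc7]; exact h5.trans (dvd_mul_left _ _))
  have hz' : orderOf (z : G) = 5 := by simpa using hz
  have hcomm : Commute (z : G) x7 := (hCx7 _).1 z.2
  have hord7 := orderOf_of_mem (by norm_num) hP7 hx7 hx71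
  have h7 : 7 ∣ w5 := dvd_w_of_commute (by norm_num) P5 hP5 hz' hord7 (by norm_num) hcomm.symm hCc5
  simp [h7] at hR5

theorem sc_prime_eq {p : ℕ} [hpf : Fact p.Prime] (h1 : p ∣ Nat.card G) (h2 : ¬ p ^ 2 ∣ Nat.card G) :
    Cfsg.Agent.Lib.NSE.Basic.sc G p = (p - 1) * Nat.card (Sylow p G) := by
  have hp : p.Prime := Fact.out
  have := Cfsg.Agent.Lib.NSE.Basic.sc_sylow (G := G) p 1 (by simpa using h1) (by simpa using h2)
    (by simpa using Cfsg.Agent.Lib.NSE.Basic.sc_ne_zero_of_prime hp h1)
  simpa [Nat.totient_prime hp] using this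

theorem no_4620 (h : Nat.card G = 4620) : False := by
  cases nonempty_fintype G
  haveI : Fact (Nat.Prime 5) := ⟨by norm_num⟩
  haveI : Fact (Nat.Prime 7) := ⟨by norm_num⟩
  haveI : Fact (Nat.Prime 11) := ⟨by norm_num⟩
  obtain ⟨P11, x11, e11, w11, n11, hP11, hx11, hx111, -, -, -, hn11, -, -, -, hCc11, hCx11, hR11⟩ :=
    exists_triple (p := 11) (m := 420) (fun n _ _ => decide (n = 210)) (by norm_num) (by norm_num)
      (h.trans (by norm_num)) (by norm_num) (by norm_num) (by decide +kernel)
  obtain ⟨P7, x7, e7, w7, n7, hP7, hx7, hx71, -, -, -, hn7, -, -, -, hCc7, hCx7, hR7⟩ :=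
    exists_triple (p := 7) (m := 660) (fun n _ w => decide (n = 330) && decide (w = 1)) (by norm_num) (by norm_num)
      (h.trans (by norm_num)) (by norm_num) (by norm_num) (by decide +kernel)
  obtain ⟨P5, x5, e5, w5, n5, hP5, hx5, hx51, -, -, -, hn5, -, -, -, hCc5, hCx5, hR5⟩ :=
    exists_triple (p := 5) (m := 924) (fun n _ w => decide (n = 231) || decide (7 ∣ w)) (by norm_num) (by norm_num)
      (h.trans (by norm_num)) (by norm_num) (by norm_num) (by decide +kernel)
  simp only [decide_eq_true_eq, Bool.and_eq_true, Bool.or_eq_true] at hR11 hR7 hR5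
  obtain ⟨rfl, rfl⟩ := hR7
  rcases hR5 with rfl | h7
  · have h1 := Cfsg.Agent.Lib.NSE.Basic.sum_le (G := G) ({5, 7, 11} : Finset ℕ)
    rw [Finset.sum_insert (by decide), Finset.sum_insert (by decide), Finset.sum_singleton,
      sc_prime_eq (p := 5) (by rw [h]; norm_num) (by rw [h]; norm_num),
      sc_prime_eq (p := 7) (by rw [h]; norm_num) (by rw [h]; norm_num),
      sc_prime_eq (p := 11) (by rw [h]; norm_num) (by rw [h]; norm_num), hn5, hn7, hn11, hR11, h] at h1
    omega
  · obtain ⟨y, hy⟩ : ∃ y : centralizer ((P5 : Subgroup G) : Set G), orderOf y = 7 :=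
      exists_prime_orderOf_dvd_card' 7 (by rw [hCc5]; exact h7.trans (dvd_mul_left _ _))
    have hy' : orderOf (y : G) = 7 := by simpa using hy
    have hcomm : Commute (y : G) x5 := (hCx5 _).1 y.2
    have hord5 := orderOf_of_mem (by norm_num) hP5 hx5 hx51
    have h5 : 5 ∣ 1 := dvd_w_of_commute (by norm_num) P7 hP7 hy' hord5 (by norm_num) hcomm.symm hCc7
    omega

theorem no_4896 (h : Nat.card G = 4896) : False := by
  have hcyc : ¬ IsCyclic G := by
    intro hc
    have : IsMulCommutative G := IsCyclic.isMulCommutative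
    have := (Group.is_simple_iff_prime_card (α := G)).1 ‹_›
    rw [h] at this
    exact absurd this (by norm_num)
  rcases Cfsg.Agent.S0999.result hcyc 17 (by norm_num) (by rw [h]; norm_num) (by rw [h]; norm_num)
    with ⟨K, _, _, hK, _, ⟨e⟩⟩ | ⟨m, K, _, _, hK, hm, _, ⟨e⟩⟩
  · have h2K : (2 : K) ≠ 0 := by
      apply Ring.two_ne_zero
      intro h2
      have := FiniteField.even_card_iff_char_two.1 h2
      omega
    have hcK := Cfsg.Agent.Lib.PSL2.Basic.card_PSL2_of_two_ne_zero h2K
    rw [← Nat.card_congr e.toEquiv, h, hK] at hcK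
    norm_num at hcK
  · have hK16 : Fintype.card K = 16 := by omega
    by_cases h2K : (2 : K) = 0
    · have hcK := Cfsg.Agent.Lib.PSL2.Basic.card_PSL2_of_two_eq_zero h2K
      rw [← Nat.card_congr e.toEquiv, h, hK16] at hcK
      norm_num at hcK
    · have hcK := Cfsg.Agent.Lib.PSL2.Basic.card_PSL2_of_two_ne_zero h2K
      rw [← Nat.card_congr e.toEquiv, h, hK16] at hcK
      norm_num at hcK

end Cfsg.Agent.Lib.SmallOrd.R3640
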