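import Mathlib
import Cfsg.Agent.Lib.SmallOrd.PN

/-!
# Degree bound from an element of order 3 centralizing a subgroup of prime order `p`
-/

set_option autoImplicit false
set_option linter.unusedSectionVars false

namespace Cfsg.Agent.Lib.SmallOrd.R3640.T

open Cfsg Subgroup Cfsg.Agent.Lib.Char Cfsg.Agent.Lib.Blocks.Local Cfsg.Agent.Lib.Blocks.Central
open Cfsg.Agent.Lib.SmallOrd Cfsg.Agent.Lib.SmallOrd.PN

universe u

variable {G : Type u} [Group G] [Fintype G]

/-- Eigenvalue data of an element of order dividing 3 in an irreducible representation of a perfect group. -/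
theorem exists_mult (hperf : commutator G = ⊤) (χ : IrrCharacter G) {z : G} (hz3 : z ^ 3 = 1) (ω : ℂ)
    (hω : ω ^ 2 + ω + 1 = 0) :
    ∃ n₀ n₁ n₂ : ℕ, n₀ + n₁ + n₂ = charDegree (χ : G → ℂ) ∧
      (χ : G → ℂ) z = n₀ + n₁ * ω + n₂ * ω ^ 2 ∧
      (χ : G → ℂ) (z ^ 2) = n₀ + n₁ * ω ^ 2 + n₂ * ω ∧
      3 ∣ n₁ + 2 * n₂ := by
  classical
  obtain ⟨f, d, ρ, hρ, rfl⟩ := χ
  have hf : (ρ z) ^ 3 = 1 := by rw [← map_pow, hz3, map_one]
  obtain ⟨n', b, μ, h1, h2⟩ := Ortho.exists_eigenbasis (ρ z) (by norm_num : 0 < 3) hf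
  have hω3 : ω ^ 3 = 1 := by linear_combination (ω - 1) * hω
  have hμ : ∀ i, μ i = 1 ∨ μ i = ω ∨ μ i = ω ^ 2 := fun i => by
    have h3 : (μ i - 1) * ((μ i - ω) * (μ i - ω ^ 2)) = 0 := by
      linear_combination h2 i + (μ i - 1) * (-μ i + ω - 1) * hω
    rcases mul_eq_zero.1 h3 with h | h
    · left; linear_combination h
    · rcases mul_eq_zero.1 h with h | h
      · right; left; linear_combination h
      · right; right; linear_combination h
  have hn' : n' = d := by
    have := Module.finrank_eq_card_basis b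
    simpa using this.symm
  subst hn'
  have hdeg : charDegree (ρ.character) = n' := by
    simp [charDegree, Representation.char_one]
  have hne1 : ω ≠ 1 := by
    rintro rfl
    norm_num at hω
  have hne2 : ω ^ 2 ≠ 1 := by
    intro h
    have : ω = 1 := by
      calc ω = ω ^ 2 * ω := by rw [h, one_mul]
        _ = ω ^ 3 := by ring
        _ = 1 := hω3
    exact hne1 this
  have hne12 : ω ≠ ω ^ 2 := by
    intro h
    have h0 : ω ≠ 0 := by
      rintro rfl
      norm_num at hω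
    apply hne1
    have h4 : ω * 1 = ω * ω := by rw [mul_one, ← pow_two]; exact h
    exact (mul_left_cancel₀ h0 h4).symm
  set A₀ := Finset.univ.filter (fun i => μ i = 1) with hA₀
  set A₁ := Finset.univ.filter (fun i => μ i = ω) with hA₁
  set A₂ := Finset.univ.filter (fun i => μ i = ω ^ 2) with hA₂
  have hind : ∀ (a₀ a₁ a₂ : ℂ) (g : Fin n' → ℂ), (∀ i, μ i = 1 → g i = a₀) → (∀ i, μ i = ω → g i = a₁) →
      (∀ i, μ i = ω ^ 2 → g i = a₂) → ∑ i, g i = A₀.card * a₀ + A₁.card * a₁ + A₂.card * a₂ := by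
    intro a₀ a₁ a₂ g h0 h1' h2'
    have hg : ∀ i, g i = (if μ i = 1 then a₀ else 0) + (if μ i = ω then a₁ else 0) + (if μ i = ω ^ 2 then a₂ else 0) := by
      intro i
      rcases hμ i with h | h | h
      · rw [if_pos h, h0 i h, if_neg (by rw [h]; exact hne1.symm), if_neg (by rw [h]; exact hne2.symm)]
        ring
      · rw [if_neg (by rw [h]; exact hne1), if_pos h, h1' i h, if_neg (by rw [h]; exact hne12)]
        ring
      · rw [if_neg (by rw [h]; exact hne2), if_neg (by rw [h]; exact hne12.symm), if_pos h, h2' i h]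
        ring
    rw [Finset.sum_congr rfl (fun i _ => hg i), Finset.sum_add_distrib, Finset.sum_add_distrib, Finset.sum_ite,
      Finset.sum_ite, Finset.sum_ite]
    simp [hA₀, hA₁, hA₂]
  have hcard : A₀.card + A₁.card + A₂.card = n' := by
    have h5 := hind 1 1 1 (fun _ => 1) (fun _ _ => rfl) (fun _ _ => rfl) (fun _ _ => rfl)
    simp only [Finset.sum_const, Finset.card_univ, Fintype.card_fin, nsmul_eq_mul, mul_one] at h5
    have h6 : ((A₀.card + A₁.card + A₂.card : ℕ) : ℂ) = (n' : ℂ) := by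
      push_cast
      exact h5.symm
    exact_mod_cast h6
  have htr1 : ρ.character z = A₀.card + A₁.card * ω + A₂.card * ω ^ 2 := by
    have h3 : ρ.character z = ∑ i, μ i := Ortho.trace_eq_sum_of_eigenbasis (ρ z) b μ h1
    rw [h3, hind 1 ω (ω ^ 2) μ (fun _ h => h) (fun _ h => h) (fun _ h => h)]
    ring
  have hb2 : ∀ i, ρ (z ^ 2) (b i) = μ i ^ 2 • b i := by
    intro i
    rw [map_pow, pow_two, Module.End.mul_apply, h1, map_smul, h1, smul_smul, pow_two]
  have htr2 : ρ.character (z ^ 2) = A₀.card + A₁.card * ω ^ 2 + A₂.card * ω := by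
    have h3 : ρ.character (z ^ 2) = ∑ i, μ i ^ 2 := Ortho.trace_eq_sum_of_eigenbasis (ρ (z ^ 2)) b _ hb2
    rw [h3, hind 1 (ω ^ 2) ω (fun i => μ i ^ 2) (fun i h => by simp [h]) (fun i h => by simp [h])
      (fun i h => by
        show μ i ^ 2 = ω
        rw [h, ← pow_mul, show 2 * 2 = 3 + 1 by norm_num, pow_add, hω3]
        ring)]
    ring
  have hdet : LinearMap.det (ρ z) = ∏ i, μ i := by
    rw [← LinearMap.det_toMatrix b]
    have h5 : LinearMap.toMatrix b b (ρ z) = Matrix.diagonal μ := by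
      ext i j
      rw [LinearMap.toMatrix_apply, h1, map_smul]
      by_cases hij : i = j
      · subst hij
        simp
      · simp [Matrix.diagonal_apply_ne _ hij, Finsupp.single_apply, Ne.symm hij]
    rw [h5, Matrix.det_diagonal]
  have hprod : ∏ i, μ i = ω ^ (A₁.card + 2 * A₂.card) := by
    have hg : ∀ i, μ i = (if μ i = ω then ω else 1) * (if μ i = ω ^ 2 then ω ^ 2 else 1) := by
      intro i
      rcases hμ i with h | h | h
      · rw [if_neg (by rw [h]; exact hne1.symm), if_neg (by rw [h]; exact hne2.symm), h]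
        ring
      · rw [if_pos h, if_neg (by rw [h]; exact hne12), h]
        ring
      · rw [if_neg (by rw [h]; exact hne12.symm), if_pos h, h]
        ring
    rw [Finset.prod_congr rfl (fun i _ => hg i), Finset.prod_mul_distrib, Finset.prod_ite, Finset.prod_ite]
    simp only [Finset.prod_const, one_pow, mul_one]
    rw [← hA₁, ← hA₂, ← pow_mul, ← pow_add]
  refine ⟨A₀.card, A₁.card, A₂.card, ?_, htr1, htr2, ?_⟩
  · rw [hdeg]
    exact hcard
  · have h6 : ω ^ (A₁.card + 2 * A₂.card) = 1 := by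
      rw [← hprod, ← hdet]
      exact det_eq_one hperf ρ z
    -- `ω` has order 3
    have ho : orderOf ω = 3 := by
      apply orderOf_eq_prime hω3 
      exact hne1
    rw [← ho]
    exact orderOf_dvd_of_pow_eq_one h6

variable {p : ℕ} [hpf : Fact p.Prime] {M : Ideal AlgInt} {P : Sylow p G} {e : ℕ}

/-- All nontrivial members of the exceptional-free part of the principal block have degree at least `2p`
if the centralizer of `P` contains an element of order `3`. -/
theorem three_bound (D : BData p M P e) (hM : IsPModular p M) (hodd : p ≠ 2) (hp3 : p ≠ 3) [IsSimpleGroup G]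
    (hperf : commutator G = ⊤) (hP : Nat.card P = p) {x z : G}
    (hx : x ∈ (P : Subgroup G)) (hx1 : x ≠ 1) (hz : z ∈ Subgroup.centralizer ((P : Subgroup G) : Set G))
    (hz3 : orderOf z = 3) {χ : IrrCharacter G} (hχ : χ ∈ D.X) (hne : (χ : G → ℂ) ≠ fun _ => 1) :
    2 * p ≤ charDegree (χ : G → ℂ) := by
  classical
  haveI hMp := isPrime_of_isPModular hM
  have hpp : p.Prime := Fact.out
  by_contra hlt
  push Not at hlt
  -- a primitive cube root of unity
  obtain ⟨ω, hω⟩ : ∃ ω : ℂ, ω ^ 2 + ω + 1 = 0 := by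
    obtain ⟨ω, hω⟩ := IsAlgClosed.exists_root (Polynomial.X ^ 2 + Polynomial.X + 1 : Polynomial ℂ) (by
      rw [show (Polynomial.X ^ 2 + Polynomial.X + 1 : Polynomial ℂ) = Polynomial.X ^ 2 + (Polynomial.X + Polynomial.C 1) by
        simp [add_assoc]]
      rw [Polynomial.degree_add_eq_left_of_degree_lt (by
        rw [Polynomial.degree_X_pow, Polynomial.degree_X_add_C]
        norm_num)]
      rw [Polynomial.degree_X_pow]
      norm_num)
    exact ⟨ω, by simpa [Polynomial.IsRoot] using hω⟩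
  have hω3 : ω ^ 3 = 1 := by linear_combination (ω - 1) * hω
  have hz3' : z ^ 3 = 1 := by rw [← hz3]; exact pow_orderOf_eq_one z
  obtain ⟨n₀, n₁, n₂, hsum, hv1, hv2, hdet⟩ := exists_mult hperf χ hz3' ω hω
  have hz1 : z ≠ 1 := by
    rintro rfl
    rw [orderOf_one] at hz3
    omega
  -- `ω` is integral
  have hωi : IsIntegral ℤ ω := by
    refine IsIntegral.of_pow (n := 3) (by norm_num) ?_
    rw [hω3]
    exact isIntegral_one
  have hωl : MemLocalRing M ω := memLocalRing_of_isIntegral hωi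
  have hω2l : MemLocalRing M (ω ^ 2) := by
    have : IsIntegral ℤ (ω ^ 2) := hωi.pow 2
    exact memLocalRing_of_isIntegral this
  -- congruences
  have hloc : ∀ g, MemLocalRing M ((χ : G → ℂ) g) := fun g =>
    memLocalRing_of_isIntegral (isIntegral_irr χ.2 g)
  have hxp : x ^ (p ^ 1) = 1 := by
    have h2 : (⟨x, hx⟩ : (P : Subgroup G)) ^ Nat.card (P : Subgroup G) = 1 := pow_card_eq_one'
    rw [hP] at h2
    rw [pow_one]
    have h3 := congrArg Subtype.val h2
    simpa using h3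
  have hzp : ¬ p ∣ orderOf z := by
    rw [hz3]
    intro h
    exact hp3 ((Nat.prime_dvd_prime_iff_eq hpp Nat.prime_three).1 h)
  have hz2C : z ^ 2 ∈ Subgroup.centralizer ((P : Subgroup G) : Set G) := Subgroup.pow_mem _ hz 2
  have hz2p : ¬ p ∣ orderOf (z ^ 2) := by
    intro h
    have h1 : orderOf (z ^ 2) ∣ 3 := orderOf_dvd_of_pow_eq_one (by rw [← pow_mul, mul_comm, pow_mul, hz3']; simp)
    exact hp3 ((Nat.prime_dvd_prime_iff_eq hpp Nat.prime_three).1 (h.trans h1))
  have hcong : ∀ y ∈ Subgroup.centralizer ((P : Subgroup G) : Set G), ¬ p ∣ orderOf y →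
      MemLocalIdeal M ((χ : G → ℂ) y - (D.εX χ : ℂ)) := by
    intro y hy hyp
    have h1 := D.valX χ hχ x hx hx1 y hy hyp
    have hcomm : Commute x y := (Subgroup.mem_centralizer_iff.1 hy x hx)
    have h2 := Cfsg.Agent.Lib.Blocks.HeightZero.memLocalIdeal_character_mul_sub hM
      (Basic.isCharacter_of_isIrrCharacter χ.2) hloc hcomm hxp
    rw [h1] at h2
    have h3 := memLocalIdeal_neg h2
    simpa using h3
  have hc1 := hcong z hz hzp
  have hc2 := hcong (z ^ 2) hz2C hz2p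
  have hc0 : MemLocalIdeal M ((charDegree (χ : G → ℂ) : ℂ) - (D.εX χ : ℂ)) := by
    have h1 := Int.modEq_iff_dvd.1 (D.degX χ hχ).symm
    have h2 := (memLocalIdeal_intCast_iff hM).2 h1
    push_cast at h2
    exact h2
  have hS1 : ((3 * n₁ : ℕ) : ℂ) = ((charDegree (χ : G → ℂ) : ℂ) - (D.εX χ : ℂ)) +
      (ω ^ 2 * ((χ : G → ℂ) z - (D.εX χ : ℂ)) + ω * ((χ : G → ℂ) (z ^ 2) - (D.εX χ : ℂ))) := by
    rw [hv1, hv2, ← hsum]
    push_cast
    linear_combination ((D.εX χ : ℂ) - (n₀ : ℂ) - (n₂ : ℂ) * (ω ^ 2 - ω + 1)) * hω - (2 * (n₁ : ℂ)) * hω3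
  have hS2 : ((3 * n₂ : ℕ) : ℂ) = ((charDegree (χ : G → ℂ) : ℂ) - (D.εX χ : ℂ)) +
      (ω * ((χ : G → ℂ) z - (D.εX χ : ℂ)) + ω ^ 2 * ((χ : G → ℂ) (z ^ 2) - (D.εX χ : ℂ))) := by
    rw [hv1, hv2, ← hsum]
    push_cast
    linear_combination ((D.εX χ : ℂ) - (n₀ : ℂ) - (n₁ : ℂ) * (ω ^ 2 - ω + 1)) * hω - (2 * (n₂ : ℂ)) * hω3
  have hI1 : MemLocalIdeal M ((3 * n₁ : ℕ) : ℂ) := by
    rw [hS1]
    exact memLocalIdeal_add hc0 (memLocalIdeal_add (memLocalIdeal_mul_left hω2l hc1) (memLocalIdeal_mul_left hωl hc2))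
  have hI2 : MemLocalIdeal M ((3 * n₂ : ℕ) : ℂ) := by
    rw [hS2]
    exact memLocalIdeal_add hc0 (memLocalIdeal_add (memLocalIdeal_mul_left hωl hc1) (memLocalIdeal_mul_left hω2l hc2))
  rw [memLocalIdeal_natCast_iff hM] at hI1 hI2
  have hp3' : ¬ p ∣ 3 := fun h => hp3 ((Nat.prime_dvd_prime_iff_eq hpp Nat.prime_three).1 h)
  have hd1 : p ∣ n₁ := (hpp.dvd_mul.1 hI1).resolve_left hp3'
  have hd2 : p ∣ n₂ := (hpp.dvd_mul.1 hI2).resolve_left hp3'
  obtain ⟨k₁, rfl⟩ := hd1
  obtain ⟨k₂, rfl⟩ := hd2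
  have hk : k₁ + k₂ < 2 := by
    have h1 : p * (k₁ + k₂) < p * 2 := by
      rw [mul_add, mul_comm p 2]
      omega
    exact Nat.lt_of_mul_lt_mul_left h1
  have hp3'' : ¬ 3 ∣ p := fun h => hp3 ((Nat.prime_dvd_prime_iff_eq Nat.prime_three hpp).1 h).symm
  have hk1 : k₁ = 0 ∨ k₁ = 1 := by omega
  rcases hk1 with rfl | rfl
  · have hk2 : k₂ = 0 ∨ k₂ = 1 := by omega
    rcases hk2 with rfl | rfl
    · -- `z` acts trivially
      apply norm_ne_degree hperf χ hne hz1
      rw [hv1, ← hsum]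
      simp
    · apply hp3''
      have h1 : 3 ∣ 2 * p := by simpa using hdet
      exact (Nat.Coprime.dvd_of_dvd_mul_left (by norm_num) h1)
  · have hk2 : k₂ = 0 := by omega
    subst hk2
    apply hp3''
    simpa using hdet

end Cfsg.Agent.Lib.SmallOrd.R3640.T
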