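import Mathlib
import Cfsg.Agent.Lib.Char.Klein4Formula
import Cfsg.Agent.Lib.Char.Klein4Count
import Cfsg.Agent.Lib.SmallOrd.PN

/-!
# The numerics of the Klein four formula for a simple group of order `4 g₀`, `g₀` odd
-/

set_option autoImplicit false

namespace Cfsg.Agent.Lib.SmallOrd.R3640.K

open Cfsg Subgroup
open scoped commutatorElement

universe u

/-- The numerical data of Brauer's formula for a simple group of order `4 g₀`. -/
theorem klein_num {G : Type u} [Group G] [Fintype G] [IsSimpleGroup G] {g₀ : ℕ} (hg₀ : Odd g₀)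
    (hG : Nat.card G = 4 * g₀) (hg1 : 1 < g₀) (P : Sylow 2 G) :
    ∃ (a b c idx cJ : ℕ) (ε : ℤ), (ε = 1 ∨ ε = -1) ∧ 1 < a ∧ 1 < b ∧ 1 < c ∧ a ∣ g₀ ∧ b ∣ g₀ ∧ c ∣ g₀ ∧
      1 + (a : ℤ) + ε * b = c ∧ (4 : ℤ) ∣ (a : ℤ) - 1 ∧ (4 : ℤ) ∣ (b : ℤ) - ε ∧ (4 : ℤ) ∣ (c : ℤ) + 1 ∧
      idx * cJ = Nat.card G ∧
      (idx : ℤ) * (((a : ℤ) + 1) * ((b : ℤ) + ε) * ((c : ℤ) - 1)) *
        (Nat.card (Subgroup.centralizer ((P : Subgroup G) : Set G)) : ℤ) ^ 2 =
        8 * (cJ : ℤ) ^ 2 * ((a : ℤ) * b * c) ∧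
      Nat.card (Subgroup.centralizer ((P : Subgroup G) : Set G)) ∣ cJ ∧
      4 ∣ Nat.card (Subgroup.centralizer ((P : Subgroup G) : Set G)) := by
  classical
  haveI : Fact (Nat.Prime 2) := ⟨by norm_num⟩
  have hg0 : ¬ 2 ∣ g₀ := by
    obtain ⟨k, rfl⟩ := hg₀
    omega
  have hnc : ¬ ∃ N : Subgroup G, N.Normal ∧ Nat.card N = g₀ := by
    rintro ⟨N, hN, hNc⟩
    rcases hN.eq_bot_or_eq_top with h | h
    · rw [h, Subgroup.card_bot] at hNc
      omega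
    · rw [h, Subgroup.card_top, hG] at hNc
      omega
  have hKF := Cfsg.Agent.Lib.Char.Klein4.KF.of_no_complement P hg₀ hG hnc
  obtain ⟨M, hM⟩ := PN.exists_modular 2 Nat.prime_two
  obtain ⟨ζ₂, ζ₃, ζ₄, ε, hε, hz2, hz3, h23, h24, h34, hB, hval, hd2, hd3, hd4, -⟩ :=
    Cfsg.Agent.Lib.Char.Klein4.exists_struct hKF hM
  -- an involution of `P`
  have hPc : Nat.card (P : Subgroup G) = 4 := hKF.card P
  haveI : Nontrivial (P : Subgroup G) := by
    rw [← Finite.one_lt_card_iff_nontrivial, hPc]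
    norm_num
  obtain ⟨x', hx'⟩ := exists_ne (1 : (P : Subgroup G))
  set J : G := (x' : G) with hJdef
  have hJP : J ∈ (P : Subgroup G) := x'.2
  have hJ1 : J ≠ 1 := fun h => hx' (Subtype.ext h)
  have hJ2 : orderOf J = 2 := orderOf_eq_prime (by rw [pow_two]; exact hKF.exp P x' x'.2) hJ1
  obtain ⟨hv2, hv3, hv4⟩ := hval J hJ2
  have hz4 : (ζ₄ : G → ℂ) ≠ fun _ => 1 := by
    intro h
    rw [h] at hv4
    norm_num at hv4
  have hval' : (ζ₂ : G → ℂ) J = ((1 : ℤ) : ℂ) ∧ (ζ₃ : G → ℂ) J = (ε : ℂ) ∧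
      (ζ₄ : G → ℂ) J = ((-1 : ℤ) : ℂ) := by
    refine ⟨by simpa using hv2, hv3, by simpa using hv4⟩
  obtain ⟨hA, hB'⟩ := Cfsg.Agent.Lib.Char.Klein4.formula_core hKF hM P hJ2 hB
    ⟨hz2, hz3, hz4, h23, h24, h34⟩ hval'
  -- perfect
  have hperf : commutator G = ⊤ := by
    rcases (commutator_normal (⊤ : Subgroup G) ⊤).eq_bot_or_eq_top with h | h
    · exfalso
      have hc : ∀ a b : G, a * b = b * a := by
        intro a b
        have h3 : ⁅a, b⁆ ∈ commutator G := Subgroup.commutator_mem_commutator (mem_top a) (mem_top b)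
        rw [_root_.commutator_def, h, mem_bot] at h3
        exact commutatorElement_eq_one_iff_mul_comm.1 h3
      haveI : IsMulCommutative G := ⟨⟨hc⟩⟩
      have h4 : (Nat.card G).Prime := Group.is_simple_iff_prime_card.mp inferInstance
      rw [hG] at h4
      exact Nat.not_prime_mul (by norm_num) (by omega : g₀ ≠ 1) h4
    · exact h
  have one_lt : ∀ ψ : IrrCharacter G, (ψ : G → ℂ) ≠ (fun _ => 1) → 1 < charDegree (ψ : G → ℂ) := by
    intro ψ hψ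
    refine Cfsg.Agent.Lib.Char.BrauerSCNum.one_lt_degree hperf ψ (fun h => hψ ?_) _ (PN.apply_one ψ)
    rw [h]
    rfl
  have hdvd : ∀ (ψ : IrrCharacter G) (n : ℤ), (4 : ℤ) ∣ (charDegree (ψ : G → ℂ) : ℤ) - n →
      (n = 1 ∨ n = -1) → charDegree (ψ : G → ℂ) ∣ g₀ := by
    intro ψ n h4 hn
    have h1 := PN.degree_dvd_card ψ
    rw [hG] at h1
    have hodd : ¬ 2 ∣ charDegree (ψ : G → ℂ) := by
      intro h2
      have h3 : (2 : ℤ) ∣ (charDegree (ψ : G → ℂ) : ℤ) := by exact_mod_cast h2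
      have h5 : (2 : ℤ) ∣ (charDegree (ψ : G → ℂ) : ℤ) - n := (by norm_num : (2 : ℤ) ∣ 4).trans h4
      rcases hn with rfl | rfl <;> omega
    have hc : Nat.Coprime (charDegree (ψ : G → ℂ)) 4 := by
      have : Nat.Coprime (charDegree (ψ : G → ℂ)) (2 ^ 2) :=
        Nat.Coprime.pow_right 2 ((Nat.Prime.coprime_iff_not_dvd Nat.prime_two).2 hodd).symm
      simpa using this
    exact hc.dvd_of_dvd_mul_left h1
  have hε2 : ε ^ 2 = 1 := by rcases hε with rfl | rfl <;> norm_num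
  refine ⟨charDegree (ζ₂ : G → ℂ), charDegree (ζ₃ : G → ℂ), charDegree (ζ₄ : G → ℂ),
    (Subgroup.centralizer ({J} : Set G)).index, Nat.card (Subgroup.centralizer ({J} : Set G)), ε, hε,
    one_lt _ hz2, one_lt _ hz3, one_lt _ hz4, hdvd _ 1 hd2 (Or.inl rfl), hdvd _ ε hd3 hε,
    hdvd _ (-1) (by simpa using hd4) (Or.inr rfl), ?_, hd2, hd3, hd4, Subgroup.index_mul_card _, ?_, ?_, ?_⟩
  · linarith
  · set a : ℤ := (charDegree (ζ₂ : G → ℂ) : ℤ) with ha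
    set b : ℤ := (charDegree (ζ₃ : G → ℂ) : ℤ) with hb
    set c : ℤ := (charDegree (ζ₄ : G → ℂ) : ℤ) with hc
    have e1 : 1 + a + ε * b - c = 0 := by linarith
    have e2 : (a + 1) * (b + ε) * (c - 1) = a * b * c + 1 * b * c + ε * a * c + (-1) * a * b := by
      have hc' : c = 1 + a + ε * b := by linarith
      rw [hc']
      linear_combination b * hε2
    rw [e2]
    exact hB'
  · refine Subgroup.card_dvd_of_le ?_
    intro y hy
    rw [Subgroup.mem_centralizer_singleton_iff]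
    exact ((Subgroup.mem_centralizer_iff.1 hy J hJP)).symm
  · rw [← hPc]
    refine Subgroup.card_dvd_of_le ?_
    intro y hy
    rw [Subgroup.mem_centralizer_iff]
    intro h hh
    exact Cfsg.Agent.Lib.Char.Klein4.comm_of_exp (hKF.exp P) hh hy

/-- The list of divisors, for kernel computations. -/
def divs (n : ℕ) : List ℕ := (List.range (n + 1)).filter (· ∣ n)

theorem mem_divs {a n : ℕ} (h : a ∣ n) (hn : 0 < n) : a ∈ divs n := by
  refine List.mem_filter.2 ⟨List.mem_range.2 (Nat.lt_succ_of_le (Nat.le_of_dvd hn h)), ?_⟩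
  simpa using h

/-- The hypothesis of the Klein four formula, as a decidable predicate. -/
def KCond (g₀ a b c : ℕ) (ε : ℤ) (cJ cP : ℕ) : Prop :=
  1 < a ∧ 1 < b ∧ 1 < c ∧ 1 + (a : ℤ) + ε * b = c ∧ (4 : ℤ) ∣ (a : ℤ) - 1 ∧ (4 : ℤ) ∣ (b : ℤ) - ε ∧
    (4 : ℤ) ∣ (c : ℤ) + 1 ∧ 4 ∣ cP ∧
    (((4 * g₀ / cJ : ℕ) : ℤ) * (((a : ℤ) + 1) * ((b : ℤ) + ε) * ((c : ℤ) - 1)) * (cP : ℤ) ^ 2 =
      8 * (cJ : ℤ) ^ 2 * ((a : ℤ) * b * c))

instance (g₀ a b c : ℕ) (ε : ℤ) (cJ cP : ℕ) : Decidable (KCond g₀ a b c ε cJ cP) := by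
  unfold KCond
  infer_instance

/-- Extract a solution of the numerical conditions. -/
theorem exists_kcond {G : Type u} [Group G] [Finite G] [IsSimpleGroup G] {g₀ : ℕ} (hg₀ : Odd g₀)
    (hG : Nat.card G = 4 * g₀) (hg1 : 1 < g₀) (P : Sylow 2 G) :
    ∃ a ∈ divs g₀, ∃ b ∈ divs g₀, ∃ c ∈ divs g₀, ∃ ε ∈ ([1, -1] : List ℤ), ∃ cJ ∈ divs (4 * g₀),
      ∃ cP ∈ divs cJ, cP = Nat.card (Subgroup.centralizer ((P : Subgroup G) : Set G)) ∧
        KCond g₀ a b c ε cJ cP := by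
  cases nonempty_fintype G
  obtain ⟨a, b, c, idx, cJ, ε, hε, ha, hb, hc, had, hbd, hcd, h1, h4a, h4b, h4c, hidx, hform, hPJ, h4P⟩ :=
    klein_num hg₀ hG hg1 P
  have hg0 : 0 < g₀ := by omega
  have hcJ : cJ ∣ 4 * g₀ := by
    rw [← hG, ← hidx]
    exact Dvd.intro_left _ rfl
  have hcJ0 : 0 < cJ := by
    rcases Nat.eq_zero_or_pos cJ with h | h
    · subst h
      rw [mul_zero] at hidx
      have := Nat.card_pos (α := G)
      omega
    · exact h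
  have hidx' : 4 * g₀ / cJ = idx := by
    rw [← hG, ← hidx]
    exact Nat.mul_div_cancel _ hcJ0
  refine ⟨a, mem_divs had hg0, b, mem_divs hbd hg0, c, mem_divs hcd hg0, ε, ?_, cJ, mem_divs hcJ (by omega),
    _, mem_divs hPJ hcJ0, rfl, ha, hb, hc, h1, h4a, h4b, h4c, h4P, ?_⟩
  · rcases hε with rfl | rfl <;> simp
  · rw [hidx']
    exact hform

end Cfsg.Agent.Lib.SmallOrd.R3640.K
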