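import Mathlib
import Cfsg.Agent.Lib.SmallOrd.Basic
import Cfsg.Agent.S0991
import Cfsg.Agent.S1010

/-!
# Eliminating orders of simple groups through pairs of Sylow subgroups
-/

set_option autoImplicit false
set_option linter.unusedSectionVars false
set_option linter.unusedVariables false
set_option linter.unusedSimpArgs false
set_option linter.style.haveILetI false

namespace Cfsg.Agent.Lib.SmallOrd.R3640.SP

open Subgroup MulAction

universe u

variable {G : Type u} [Group G] [Finite G]

theorem not_comm [IsSimpleGroup G] (h : ¬ (Nat.card G).Prime) : ¬ IsMulCommutative G := by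
  intro hc
  let _ : CommGroup G := { (inferInstance : Group G) with mul_comm := hc.is_comm.comm }
  exact h IsSimpleGroup.prime_card

/-- The embedding in the alternating group. -/
theorem two_mul_dvd_factorial [IsSimpleGroup G] (hG : ¬ IsMulCommutative G) (H : Subgroup G) (hH : H ≠ ⊤) :
    2 * Nat.card G ∣ H.index.factorial := by
  obtain ⟨f, hf⟩ := Cfsg.Agent.S0991.result hG H hH
  have h1 := Subgroup.card_dvd_of_injective f hf
  have hidx : 2 ≤ H.index := by
    have h0 : H.index ≠ 0 := Subgroup.index_ne_zero_of_finite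
    have h3 : H.index ≠ 1 := by
      rw [Ne, Subgroup.index_eq_one]
      exact hH
    omega
  haveI : Nontrivial (Fin H.index) := Fin.nontrivial_iff_two_le.2 hidx
  have h2 := two_mul_nat_card_alternatingGroup (α := Fin H.index)
  rw [Nat.card_perm, Nat.card_fin] at h2
  rw [← h2]
  exact Nat.mul_dvd_mul_left 2 h1

theorem card_sylow_eq {p a m : ℕ} [hp : Fact p.Prime] (hG : Nat.card G = p ^ a * m) (hpm : ¬ p ∣ m) (P : Sylow p G) :
    Nat.card (P : Subgroup G) = p ^ a := by
  have hm0 : m ≠ 0 := by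
    rintro rfl
    exact hpm (dvd_zero p)
  rw [Sylow.card_eq_multiplicity, hG, Nat.factorization_mul (pow_ne_zero _ hp.out.ne_zero) hm0, Finsupp.add_apply,
    Nat.factorization_eq_zero_of_not_dvd hpm, Nat.Prime.factorization_pow hp.out]
  simp

/-- The normalizer of a Sylow subgroup of a simple group is proper. -/
theorem normalizer_ne_top [IsSimpleGroup G] {p a m : ℕ} [hp : Fact p.Prime] (hG : Nat.card G = p ^ a * m) (hpm : ¬ p ∣ m)
    (ha : 1 ≤ a) (hm : 1 < m) (P : Sylow p G) : normalizer ((P : Subgroup G) : Set G) ≠ ⊤ := by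
  intro h
  haveI : (P : Subgroup G).Normal := Subgroup.normalizer_eq_top_iff.1 h
  have hc := card_sylow_eq hG hpm P
  have hp1 : 1 < p ^ a := Nat.one_lt_pow (by omega) hp.out.one_lt
  rcases (inferInstance : (P : Subgroup G).Normal).eq_bot_or_eq_top with h1 | h1
  · rw [h1] at hc
    simp at hc
    omega
  · rw [h1, Nat.card_congr Subgroup.topEquiv.toEquiv, hG] at hc
    have : p ^ a * m = p ^ a * 1 := by rw [hc]; ring
    have := Nat.eq_of_mul_eq_mul_left (by omega) this
    omega

/-- The normalizer of the intersection. -/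
abbrev NN {p : ℕ} [Fact p.Prime] (S R : Sylow p G) : Subgroup G :=
  normalizer (((S : Subgroup G) ⊓ (R : Subgroup G) : Subgroup G) : Set G)

/-- The numerical data of a pair of Sylow subgroups. -/
theorem pair_data [IsSimpleGroup G] {p a m : ℕ} [hp : Fact p.Prime] (hG : Nat.card G = p ^ a * m) (hpm : ¬ p ∣ m)
    (S R : Sylow p G) (hSR : S ≠ R) (hD : (S : Subgroup G) ⊓ (R : Subgroup G) ≠ ⊥)
    (hS : (S : Subgroup G) ≤ NN S R) (hR : (R : Subgroup G) ≤ NN S R) :
    ∃ (idx h d N' : ℕ), NN S R ≠ ⊤ ∧ (NN S R).index = idx ∧ idx * h = m ∧ Nat.card (NN S R) = p ^ a * h ∧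
      d = Nat.card (Sylow p (NN S R)) ∧ d ≠ 1 ∧ d % p = 1 ∧ N' * d = h ∧
      Nat.card (normalizer (((S.subtype hS : Sylow p (NN S R)) : Subgroup (NN S R)) : Set (NN S R))) = p ^ a * N' := by
  classical
  set D : Subgroup G := (S : Subgroup G) ⊓ (R : Subgroup G) with hDdef
  set H : Subgroup G := normalizer (D : Set G) with hH
  have hHtop : H ≠ ⊤ := by
    intro h
    haveI : D.Normal := Subgroup.normalizer_eq_top_iff.1 h
    rcases (inferInstance : D.Normal).eq_bot_or_eq_top with h1 | h1
    · exact hD h1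
    · apply hSR
      have h3 : (S : Subgroup G) = ⊤ := top_le_iff.1 (h1 ▸ inf_le_left)
      have h4 : (R : Subgroup G) = ⊤ := top_le_iff.1 (h1 ▸ inf_le_right)
      apply Sylow.ext
      rw [h3, h4]
  have hcS := card_sylow_eq hG hpm S
  obtain ⟨h, hh⟩ : p ^ a ∣ Nat.card H := hcS ▸ Subgroup.card_dvd_of_le hS
  have hmul := Subgroup.card_mul_index H
  rw [hh, hG] at hmul
  have hp0 : 0 < p ^ a := pow_pos hp.out.pos a
  have hidx : H.index * h = m := by
    have h3 : p ^ a * (H.index * h) = p ^ a * m := by rw [← hmul]; ring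
    exact Nat.eq_of_mul_eq_mul_left hp0 h3
  let S' : Sylow p H := S.subtype hS
  let R' : Sylow p H := R.subtype hR
  have hne : S' ≠ R' := fun h => hSR (Sylow.subtype_injective h)
  have hd1 : Nat.card (Sylow p H) ≠ 1 := by
    haveI : Nontrivial (Sylow p H) := ⟨⟨S', R', hne⟩⟩
    exact (Finite.one_lt_card (α := Sylow p H)).ne'
  have hdm : Nat.card (Sylow p H) % p = 1 := by
    have := card_sylow_modEq_one p H
    rw [Nat.ModEq, Nat.mod_eq_of_lt hp.out.one_lt] at this
    exact this
  have hcS' : Nat.card (S' : Subgroup H) = p ^ a := by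
    rw [← hcS]
    exact Nat.card_congr (Subgroup.subgroupOfEquivOfLe hS).toEquiv
  obtain ⟨N', hN'⟩ : p ^ a ∣ Nat.card (normalizer ((S' : Subgroup H) : Set H)) := by
    rw [← hcS']
    exact Subgroup.card_dvd_of_le Subgroup.le_normalizer
  have h5 : Nat.card (normalizer ((S' : Subgroup H) : Set H)) * Nat.card (Sylow p H) = Nat.card H := by
    rw [S'.card_eq_index_normalizer]
    exact Subgroup.card_mul_index _
  rw [hN', hh, mul_assoc] at h5
  exact ⟨H.index, h, Nat.card (Sylow p H), N', hHtop, rfl, hidx, hh, rfl, hd1, hdm, Nat.eq_of_mul_eq_mul_left hp0 h5, hN'⟩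

/-- Groups of order twice an odd number have an odd number of Sylow `p`-subgroups. -/
theorem odd_card_sylow {H : Type*} [Group H] [Finite H] {k : ℕ} (hk : Odd k) (hH : Nat.card H = 2 * k) {p : ℕ}
    [hp : Fact p.Prime] (hp2 : p ≠ 2) : Odd (Nat.card (Sylow p H)) := by
  classical
  haveI h2f : Fact (Nat.Prime 2) := ⟨Nat.prime_two⟩
  obtain ⟨T⟩ : Nonempty (Sylow 2 H) := inferInstance
  have hk2 : ¬ 2 ∣ k := by
    obtain ⟨j, rfl⟩ := hk
    omega
  have hT : Nat.card (T : Subgroup H) = 2 := by
    have := card_sylow_eq (G := H) (p := 2) (a := 1) (m := k) (by rw [hH, pow_one]) hk2 T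
    simpa using this
  have hN : normalizer ((T : Subgroup H) : Set H) ≤ centralizer ((T : Subgroup H) : Set H) := by
    intro g hg
    rw [Subgroup.mem_centralizer_iff]
    intro x hx
    obtain ⟨y, -, hy⟩ := (Nat.card_eq_two_iff' (1 : (T : Subgroup H))).1 hT
    by_cases hx1 : x = 1
    · rw [hx1, mul_one, one_mul]
    have hm : g * x * g⁻¹ ∈ (T : Subgroup H) := (Subgroup.mem_normalizer_iff.1 hg x).1 hx
    have h1 : (⟨x, hx⟩ : (T : Subgroup H)) = ⟨g * x * g⁻¹, hm⟩ := by
      have h3 := hy ⟨x, hx⟩ (fun h => hx1 (congrArg Subtype.val h))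
      have h4 := hy ⟨g * x * g⁻¹, hm⟩ (fun h => hx1 (by
        have h5 : g * x * g⁻¹ = 1 := congrArg Subtype.val h
        have h6 : x = g⁻¹ * (g * x * g⁻¹) * g := by group
        rw [h6, h5]
        group))
      rw [h3, h4]
    have h5 : x = g * x * g⁻¹ := congrArg Subtype.val h1
    calc x * g = g * x * g⁻¹ * g := by rw [← h5]
      _ = g * x := by group
  let f := MonoidHom.transferSylow T hN
  have hcompl := MonoidHom.not_dvd_card_ker_transferSylow T hN
  obtain ⟨P⟩ : Nonempty (Sylow p H) := inferInstance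
  obtain ⟨j, hj⟩ := P.2.exists_card_eq
  have hf1 : ∀ x : H, Nat.Coprime (orderOf x) 2 → f x = 1 := by
    intro x hx
    have h1 : orderOf (f x) ∣ orderOf x := orderOf_map_dvd f x
    have h3 : orderOf (f x) ∣ 2 := by
      have := orderOf_dvd_natCard (f x)
      rwa [hT] at this
    have h4 := Nat.Coprime.coprime_dvd_left h1 hx
    have h5 : orderOf (f x) = 1 := Nat.Coprime.eq_one_of_dvd h4 h3
    exact orderOf_eq_one_iff.1 h5
  have hPK : (P : Subgroup H) ≤ f.ker := by
    intro x hx
    rw [MonoidHom.mem_ker]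
    apply hf1
    have h1 : orderOf x ∣ Nat.card (P : Subgroup H) := Subgroup.orderOf_dvd_natCard _ hx
    rw [hj] at h1
    apply Nat.Coprime.coprime_dvd_left h1
    exact Nat.Coprime.pow_left _ ((Nat.coprime_primes hp.out Nat.prime_two).2 hp2)
  haveI : f.ker.Normal := MonoidHom.normal_ker f
  have hFr : normalizer ((P : Subgroup H) : Set H) ⊔ f.ker = ⊤ := Sylow.normalizer_sup_eq_top' P hPK
  have h2N : 2 ∣ Nat.card (normalizer ((P : Subgroup H) : Set H)) := by
    by_contra hc
    have hle : normalizer ((P : Subgroup H) : Set H) ≤ f.ker := by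
      intro g hg
      rw [MonoidHom.mem_ker]
      apply hf1
      have h1 : orderOf g ∣ Nat.card (normalizer ((P : Subgroup H) : Set H)) := Subgroup.orderOf_dvd_natCard _ hg
      apply Nat.Coprime.coprime_dvd_left h1
      exact ((Nat.Prime.coprime_iff_not_dvd Nat.prime_two).2 hc).symm
    rw [sup_eq_right.2 hle] at hFr
    apply hcompl
    have h3 : f = MonoidHom.transferSylow T hN := rfl
    rw [← h3, hFr, Nat.card_congr Subgroup.topEquiv.toEquiv, hH]
    exact dvd_mul_right _ _
  obtain ⟨c, hc⟩ := h2N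
  have h5 : Nat.card (normalizer ((P : Subgroup H) : Set H)) * Nat.card (Sylow p H) = Nat.card H := by
    rw [P.card_eq_index_normalizer]
    exact Subgroup.card_mul_index _
  rw [hc, hH, mul_assoc] at h5
  have h6 : c * Nat.card (Sylow p H) = k := Nat.eq_of_mul_eq_mul_left (by norm_num) h5
  rw [← h6] at hk
  exact (Nat.odd_mul.1 hk).2

/-- Normalizers in a subgroup. -/
theorem card_normalizer_subtype_dvd {p : ℕ} [Fact p.Prime] (H : Subgroup G) (S : Sylow p G) (hS : (S : Subgroup G) ≤ H) :
    Nat.card (normalizer (((S.subtype hS : Sylow p H) : Subgroup H) : Set H)) ∣ Nat.card (normalizer ((S : Subgroup G) : Set G)) := by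
  have h1 := Subgroup.le_normalizer_map (H := ((S.subtype hS : Sylow p H) : Subgroup H)) H.subtype
  have h2 : ((S.subtype hS : Sylow p H) : Subgroup H).map H.subtype = (S : Subgroup G) := by
    rw [Sylow.coe_subtype, subgroupOf_map_subtype, inf_of_le_left hS]
  rw [h2] at h1
  have h3 : Nat.card ((normalizer (((S.subtype hS : Sylow p H) : Subgroup H) : Set H)).map H.subtype) =
      Nat.card (normalizer (((S.subtype hS : Sylow p H) : Subgroup H) : Set H)) :=
    Nat.card_congr (Subgroup.equivMapOfInjective _ H.subtype H.subtype_injective).toEquiv.symm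
  rw [← h3]
  exact Subgroup.card_dvd_of_le h1

/-- The count of Sylow subgroups. -/
theorem sylow_facts [IsSimpleGroup G] {p a m : ℕ} [hp : Fact p.Prime] (hG : Nat.card G = p ^ a * m) (hpm : ¬ p ∣ m)
    (ha : 1 ≤ a) (hm : 1 < m) (hNC : ¬ IsMulCommutative G) (P : Sylow p G) :
    ∃ (n c : ℕ), n = Nat.card (Sylow p G) ∧ n % p = 1 ∧ c * n = m ∧ Nat.card (normalizer ((P : Subgroup G) : Set G)) = p ^ a * c ∧
      2 * Nat.card G ∣ n.factorial := by
  have hne := normalizer_ne_top hG hpm ha hm P
  have hmod := card_sylow_modEq_one p G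
  obtain ⟨n, hn⟩ : ∃ n, n = Nat.card (Sylow p G) := ⟨_, rfl⟩
  have hmul : Nat.card (normalizer ((P : Subgroup G) : Set G)) * n = Nat.card G := by
    rw [hn, P.card_eq_index_normalizer]
    exact Subgroup.card_mul_index _
  obtain ⟨c, hc⟩ : p ^ a ∣ Nat.card (normalizer ((P : Subgroup G) : Set G)) := by
    rw [← card_sylow_eq hG hpm P]
    exact Subgroup.card_dvd_of_le Subgroup.le_normalizer
  have hn48 : c * n = m := by
    rw [hc, hG, mul_assoc] at hmul
    exact Nat.eq_of_mul_eq_mul_left (pow_pos hp.out.pos a) hmul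
  have hidx : (normalizer ((P : Subgroup G) : Set G)).index = n := by
    rw [hn, P.card_eq_index_normalizer]
    rfl
  have hf := two_mul_dvd_factorial hNC _ hne
  rw [hidx] at hf
  have hnmod : n % p = 1 := by
    rw [← hn, Nat.ModEq, Nat.mod_eq_of_lt hp.out.one_lt] at hmod
    exact hmod
  exact ⟨n, c, hn, hnmod, hn48, hc, hf⟩

end Cfsg.Agent.Lib.SmallOrd.R3640.SP
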