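import Mathlib
import Cfsg.Agent.Lib.SmallOrd.R3640.SP

/-!
# No simple group of order 4200
-/

set_option autoImplicit false
set_option linter.unusedSectionVars false
set_option linter.unusedVariables false
set_option linter.style.haveILetI false

namespace Cfsg.Agent.Lib.SmallOrd.R3640

open Subgroup MulAction SP

universe u

theorem no_4200 {G : Type u} [Group G] [Finite G] [IsSimpleGroup G] (h : Nat.card G = 4200) : False := by
  classical
  haveI h5 : Fact (Nat.Prime 5) := ⟨by norm_num⟩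
  have hG' : Nat.card G = 5 ^ 2 * 168 := by rw [h]; norm_num
  have hpm : ¬ 5 ∣ 168 := by norm_num
  have hNC : ¬ IsMulCommutative G := not_comm (by rw [h]; norm_num)
  obtain ⟨P⟩ : Nonempty (Sylow 5 G) := inferInstance
  obtain ⟨n, c, hn, hnmod, hcn, hc, hf⟩ := sylow_facts hG' hpm (by norm_num) (by norm_num) hNC P
  rw [h] at hf
  have hnd : n ∣ 168 := ⟨c, by rw [← hcn]; ring⟩
  have hnle : n ≤ 168 := Nat.le_of_dvd (by norm_num) hnd
  have h21 : n ≠ 21 := by
    rw [hn]
    exact Cfsg.Agent.S1010.result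
  have hn1 : ∀ n ∈ Finset.range 169, n ∣ 168 → n % 5 = 1 → n ≠ 21 → 2 * 4200 ∣ n.factorial → n = 56 := by decide +kernel
  have hn56 := hn1 n (Finset.mem_range.2 (by omega)) hnd hnmod h21 hf
  subst hn56
  have hc3 : c = 3 := by omega
  subst hc3
  obtain ⟨S, R, hSR, hcard, hS, hR⟩ := Cfsg.Agent.Lib.SmallOrd.exists_sylow_pair_of_not_modEq (G := G) (p := 5) (by
    rw [← hn]
    decide)
  have hDne : (S : Subgroup G) ⊓ (R : Subgroup G) ≠ ⊥ := by
    intro h0
    rw [h0, card_sylow_eq hG' hpm S] at hcard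
    simp at hcard
  obtain ⟨idx, k, d, N', hHt, hHi, hik, hHc, hd, hd1, hdm, hNd, hNc⟩ := pair_data hG' hpm S R hSR hDne hS hR
  have hf2 := two_mul_dvd_factorial hNC _ hHt
  rw [hHi, h] at hf2
  have hN3 : N' ∣ 3 := by
    obtain ⟨n', c', hn', -, hcn', hc', -⟩ := sylow_facts hG' hpm (by norm_num) (by norm_num) hNC S
    have hc'3 : c' = 3 := by
      have hn'' : n' = 56 := by rw [hn', ← hn]
      rw [hn''] at hcn'
      omega
    subst hc'3
    have h3 := card_normalizer_subtype_dvd (NN S R) S hS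
    rw [hNc, hc'] at h3
    exact Nat.dvd_of_mul_dvd_mul_left (by norm_num) h3
  have key : ∀ idx ∈ Finset.range 169, ∀ k ∈ Finset.range 169, idx * k = 168 → ∀ d ∈ Finset.range 169, ∀ N' ∈ Finset.range 4,
      N' * d = k → N' ∣ 3 → d ≠ 1 → d % 5 = 1 → 8400 ∣ idx.factorial → k = 6 ∧ d = 6 := by decide +kernel
  have hkle : k ≤ 168 := Nat.le_of_dvd (by norm_num) ⟨idx, by rw [← hik]; ring⟩
  have hidxle : idx ≤ 168 := Nat.le_of_dvd (by norm_num) ⟨k, by rw [← hik]⟩
  have hk0 : 0 < k := by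
    apply Nat.pos_of_ne_zero
    rintro rfl
    simp at hik
  have hN'le : N' ≤ 3 := Nat.le_of_dvd (by norm_num) hN3
  have hN'0 : 0 < N' := by
    apply Nat.pos_of_ne_zero
    rintro rfl
    simp at hN3
  have hdle : d ≤ k := by
    rw [← hNd]
    exact Nat.le_mul_of_pos_left d hN'0
  obtain ⟨hk6, hd6⟩ := key idx (Finset.mem_range.2 (by omega)) k (Finset.mem_range.2 (by omega)) hik d (Finset.mem_range.2 (by omega))
    N' (Finset.mem_range.2 (by omega)) hNd hN3 hd1 hdm (by simpa using hf2)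
  have hodd := odd_card_sylow (H := NN S R) (k := 75) (p := 5) (by decide) (by rw [hHc, hk6]; norm_num) (by norm_num)
  rw [← hd, hd6] at hodd
  exact absurd hodd (by decide)

end Cfsg.Agent.Lib.SmallOrd.R3640
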