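import Mathlib
import Cfsg.Agent.Lib.SmallOrd.R3640.KleinNum

/-!
# No simple group of order 5148
-/

set_option autoImplicit false

namespace Cfsg.Agent.Lib.SmallOrd.R3640

open Cfsg.Agent.Lib.SmallOrd.R3640.K

universe u

theorem K.num_5148 : ∀ a ∈ divs 1287, ∀ b ∈ divs 1287, ∀ c ∈ divs 1287, ∀ ε ∈ ([1, -1] : List ℤ),
    1 + (a : ℤ) + ε * b = c → ∀ cJ ∈ divs 5148, ∀ cP ∈ divs cJ, ¬ KCond 1287 a b c ε cJ cP := by
  decide +kernel

theorem no_5148 {G : Type u} [Group G] [Finite G] [IsSimpleGroup G] (h : Nat.card G = 5148) : False := by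
  haveI : Fact (Nat.Prime 2) := ⟨by norm_num⟩
  obtain ⟨P⟩ : Nonempty (Sylow 2 G) := inferInstance
  obtain ⟨a, ha, b, hb, c, hc, ε, hε, cJ, hcJ, cP, hcP, -, hK⟩ :=
    exists_kcond (g₀ := 1287) (by decide) (by rw [h]) (by norm_num) P
  exact K.num_5148 a ha b hb c hc ε hε hK.2.2.2.1 cJ hcJ cP hcP hK

end Cfsg.Agent.Lib.SmallOrd.R3640
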