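import Mathlib
import Cfsg.Agent.Lib.SmallOrd.Basic
import Cfsg.Agent.Lib.Transfer.IndexTwo

/-!
# Sylow pairs: overgroups of two Sylow subgroups, groups of order twice an odd number
-/

set_option autoImplicit false

namespace Cfsg.Agent.Lib.SmallOrd.R3640.SylowPair

open Subgroup Cfsg.Agent.Lib.SmallCen.SmallOrder

universe u

/-- A group of order twice an odd number has a normal subgroup of index two. -/
theorem exists_index_two {H : Type u} [Group H] [Finite H] {k : ℕ} (hk : Odd k)
    (hH : Nat.card H = 2 * k) : ∃ K : Subgroup H, K.Normal ∧ K.index = 2 := by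
  haveI : Fact (Nat.Prime 2) := ⟨Nat.prime_two⟩
  obtain ⟨t, ht⟩ := exists_prime_orderOf_dvd_card' 2 (hH ▸ dvd_mul_right 2 k)
  set S : Subgroup H := zpowers t with hS
  have hScard : Nat.card S = 2 := by rw [hS, Nat.card_zpowers, ht]
  have hk0 : 0 < k := hk.pos
  have hSidx : S.index = k := by
    have h1 := Subgroup.card_mul_index S
    rw [hScard, hH] at h1
    exact Nat.eq_of_mul_eq_mul_left (by norm_num) h1
  haveI : S.FiniteIndex := ⟨by omega⟩
  have hrel : (⊥ : Subgroup H).relIndex S = 2 := by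
    rw [Subgroup.relIndex_bot_left, hScard]
  have ht1 : t ≠ 1 := by
    rintro rfl
    simp at ht
  obtain ⟨N, hN, hNi, -⟩ := Cfsg.Agent.Lib.Transfer.IndexTwo.exists_normal_index_two_of_relIndex
    S (by rw [hSidx]; exact hk) ⊥ hrel t 1 (by rw [pow_one, ← ht]; exact pow_orderOf_eq_one t)
    (by
      intro g _ hg
      rw [Subgroup.mem_bot] at hg
      apply ht1
      have : t = g * (g⁻¹ * t * g) * g⁻¹ := by group
      rw [this, hg]
      simp)
    (by
      intro j hj hjd g _
      have hj2 : j = 2 := by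
        have := Nat.le_of_dvd (by norm_num) hjd
        rw [pow_one] at this
        omega
      subst hj2
      have : t ^ 2 = 1 := by rw [← ht]; exact pow_orderOf_eq_one t
      rw [this]
      simp)
  exact ⟨N, hN, hNi⟩

/-- In a group of order twice an odd number the number of Sylow `p`-subgroups, `p` odd, is odd. -/
theorem odd_card_sylow {H : Type u} [Group H] [Finite H] {p : ℕ} [Fact p.Prime] (hp2 : p ≠ 2)
    {k : ℕ} (hk : Odd k) (hH : Nat.card H = 2 * k) : Odd (Nat.card (Sylow p H)) := by
  obtain ⟨K, hK, hKi⟩ := exists_index_two hk hH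
  obtain ⟨P⟩ : Nonempty (Sylow p H) := inferInstance
  have hpp : p.Prime := Fact.out
  have hPK : (P : Subgroup H) ≤ K := by
    have h1 : K.relIndex (P : Subgroup H) ∣ K.index := Subgroup.relIndex_dvd_index_of_normal _ _
    have h2 : K.relIndex (P : Subgroup H) ∣ Nat.card (P : Subgroup H) := Subgroup.relIndex_dvd_card _ _
    obtain ⟨n, hn⟩ := P.2.exists_card_eq
    rw [hn] at h2
    rw [hKi] at h1
    have h3 : Nat.Coprime 2 (p ^ n) := Nat.Coprime.pow_right n
      ((Nat.coprime_primes Nat.prime_two hpp).2 (Ne.symm hp2))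
    have h4 : K.relIndex (P : Subgroup H) = 1 := Nat.eq_one_of_dvd_coprimes h3 h1 h2
    exact Subgroup.relIndex_eq_one.1 h4
  have hfr := Sylow.normalizer_sup_eq_top (P.subtype hPK)
  rw [Sylow.coe_subtype, Subgroup.subgroupOf_map_subtype, inf_eq_left.mpr hPK] at hfr
  set M : Subgroup H := normalizer ((P : Subgroup H) : Set H) with hM
  have hMK : ¬ M ≤ K := by
    intro h
    rw [sup_eq_right.mpr h] at hfr
    rw [hfr, Subgroup.index_top] at hKi
    omega
  have h5 : K.relIndex M ∣ 2 := hKi ▸ Subgroup.relIndex_dvd_index_of_normal _ _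
  have h6 : K.relIndex M ≠ 1 := fun h => hMK (Subgroup.relIndex_eq_one.1 h)
  have h7 : K.relIndex M = 2 := (Nat.dvd_prime Nat.prime_two).1 h5 |>.resolve_left h6
  have h8 : 2 ∣ Nat.card M := h7 ▸ Subgroup.relIndex_dvd_card _ _
  have h9 : Nat.card M * Nat.card (Sylow p H) = 2 * k := by
    rw [← hH, P.card_eq_index_normalizer]
    exact Subgroup.card_mul_index _
  obtain ⟨c, hc⟩ := h8
  rw [hc, mul_assoc] at h9
  have h10 : c * Nat.card (Sylow p H) = k := Nat.eq_of_mul_eq_mul_left (by norm_num) h9
  have h11 : Nat.card (Sylow p H) ∣ k := ⟨c, by rw [← h10, mul_comm]⟩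
  exact Odd.of_dvd_nat hk h11

variable {G : Type u} [Group G] [Finite G]

/-- Overgroup `H` of two different Sylow `p`-subgroups. -/
theorem overgroup_data {p a m : ℕ} [Fact p.Prime] (hG : Nat.card G = p ^ a * m) (hm : ¬ p ∣ m)
    (P R : Sylow p G) (hPR : P ≠ R) (H : Subgroup G) (hP : (P : Subgroup G) ≤ H)
    (hR : (R : Subgroup G) ≤ H) :
    ∃ h : ℕ, Nat.card H = p ^ a * h ∧ H.index * h = m ∧ Nat.card (Sylow p H) ≠ 1 ∧
      Nat.card (Sylow p H) % p = 1 % p ∧ Nat.card (Sylow p H) ∣ h ∧
      Nat.card (normalizer ((P : Subgroup G) : Set G) ⊓ H : Subgroup G) * Nat.card (Sylow p H) =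
        Nat.card H := by
  have hpp : p.Prime := Fact.out
  have hPc : Nat.card (P : Subgroup G) = p ^ a := card_sylow_eq hG hm P
  obtain ⟨h, hh⟩ : p ^ a ∣ Nat.card H := hPc ▸ Subgroup.card_dvd_of_le hP
  have hpa : 0 < p ^ a := pow_pos hpp.pos a
  have hidx : H.index * h = m := by
    have h1 := Subgroup.card_mul_index H
    rw [hh, hG] at h1
    have h2 : p ^ a * (h * H.index) = p ^ a * m := by rw [← mul_assoc]; exact h1
    have h3 := Nat.eq_of_mul_eq_mul_left hpa h2
    rw [mul_comm]; exact h3
  have hPne : P.subtype hP ≠ R.subtype hR := fun h1 => hPR (Sylow.subtype_injective h1)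
  have hd1 : Nat.card (Sylow p H) ≠ 1 := by
    intro h1
    have := (Nat.card_eq_one_iff_unique.1 h1).1
    exact hPne (Subsingleton.elim _ _)
  have hmod : Nat.card (Sylow p H) % p = 1 % p := card_sylow_modEq_one p H
  have hPcoe : Nat.card ((P.subtype hP : Sylow p H) : Subgroup H) = p ^ a := by
    rw [Sylow.coe_subtype]
    rw [Nat.card_congr (Subgroup.subgroupOfEquivOfLe hP).toEquiv]
    exact hPc
  have hidx2 : ((P.subtype hP : Sylow p H) : Subgroup H).index = h := by
    have h1 := Subgroup.card_mul_index ((P.subtype hP : Sylow p H) : Subgroup H)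
    rw [hPcoe, hh] at h1
    exact Nat.eq_of_mul_eq_mul_left hpa h1
  have hdh : Nat.card (Sylow p H) ∣ h := hidx2 ▸ (P.subtype hP).card_dvd_index
  refine ⟨h, hh, hidx, hd1, hmod, hdh, ?_⟩
  have h1 := Subgroup.card_mul_index (normalizer (((P.subtype hP : Sylow p H) : Subgroup H) : Set H))
  have h3 : Nat.card (Sylow p H) =
      (normalizer (((P.subtype hP : Sylow p H) : Subgroup H) : Set H)).index :=
    (P.subtype hP).card_eq_index_normalizer
  rw [← h3, Sylow.coe_subtype, ← Subgroup.subgroupOf_normalizer_eq hP] at h1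
  rw [← h1]
  congr 1
  have h2 : (normalizer ((P : Subgroup G) : Set G) ⊓ H).subgroupOf H =
      (normalizer ((P : Subgroup G) : Set G)).subgroupOf H := Subgroup.inf_subgroupOf_right _ _
  rw [← h2]
  exact (Nat.card_congr (Subgroup.subgroupOfEquivOfLe inf_le_right).toEquiv).symm

/-- Two Sylow subgroups with a large intersection, in a simple group. -/
theorem exists_overgroup [IsSimpleGroup G] {p a m : ℕ} [Fact p.Prime] (hG : Nat.card G = p ^ a * m)
    (hm : ¬ p ∣ m) (ha : 2 ≤ a) (S R : Sylow p G) (hSR : S ≠ R)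
    (hcard : Nat.card ((S : Subgroup G) ⊓ (R : Subgroup G) : Subgroup G) * p =
      Nat.card (S : Subgroup G))
    (hS : (S : Subgroup G) ≤ normalizer (((S : Subgroup G) ⊓ (R : Subgroup G) : Subgroup G) : Set G))
    (hR : (R : Subgroup G) ≤ normalizer (((S : Subgroup G) ⊓ (R : Subgroup G) : Subgroup G) : Set G)) :
    ∃ (H : Subgroup G) (h : ℕ), H = normalizer (((S : Subgroup G) ⊓ (R : Subgroup G) : Subgroup G) : Set G) ∧
      H ≠ ⊤ ∧ Nat.card H = p ^ a * h ∧ H.index * h = m ∧ Nat.card (Sylow p H) ≠ 1 ∧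
      Nat.card (Sylow p H) % p = 1 % p ∧ Nat.card (Sylow p H) ∣ h ∧
      Nat.card (normalizer ((S : Subgroup G) : Set G) ⊓ H : Subgroup G) * Nat.card (Sylow p H) =
        Nat.card H := by
  have hpp : p.Prime := Fact.out
  set L : Subgroup G := (S : Subgroup G) ⊓ (R : Subgroup G) with hL
  have hSc : Nat.card (S : Subgroup G) = p ^ a := card_sylow_eq hG hm S
  have hLc : Nat.card L = p ^ (a - 1) := by
    have h1 : p ^ a = p ^ (a - 1) * p := by
      rw [← pow_succ]; congr 1; omega
    rw [hSc, h1] at hcard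
    exact Nat.eq_of_mul_eq_mul_right hpp.pos hcard
  have hne : normalizer (L : Set G) ≠ ⊤ := by
    intro h
    have hN : L.Normal := Subgroup.normalizer_eq_top_iff.1 h
    rcases hN.eq_bot_or_eq_top with h3 | h3
    · rw [h3, Subgroup.card_bot] at hLc
      have h4 : 1 < p ^ (a - 1) := Nat.one_lt_pow (by omega) hpp.one_lt
      omega
    · rw [h3, Subgroup.card_top, hG] at hLc
      have h4 : p ^ a ≤ p ^ (a - 1) := by
        have h5 : 0 < m := Nat.pos_of_ne_zero (by rintro rfl; exact hm (dvd_zero p))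
        rw [← hLc]
        exact Nat.le_mul_of_pos_right _ h5
      have h5 : p ^ (a - 1) < p ^ a := Nat.pow_lt_pow_right hpp.one_lt (by omega)
      omega
  obtain ⟨h, h1, h2, h3, h4, h5, h6⟩ := overgroup_data hG hm S R hSR _ hS hR
  exact ⟨_, h, rfl, hne, h1, h2, h3, h4, h5, h6⟩

/-- A free action of a subgroup on an invariant finite set: the order divides the cardinality. -/
theorem card_dvd_of_free {X : Type*} [DecidableEq X] [MulAction G X] (P : Subgroup G) :
    ∀ A : Finset X, (∀ x ∈ P, ∀ a ∈ A, x • a ∈ A) → (∀ x ∈ P, ∀ a ∈ A, x • a = a → x = 1) →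
      Nat.card P ∣ A.card := by
  classical
  intro A
  induction A using Finset.strongInduction with
  | H A ih =>
    intro hinv hfree
    rcases A.eq_empty_or_nonempty with rfl | ⟨a, ha⟩
    · simp
    · haveI : Fintype P := Fintype.ofFinite _
      set O : Finset X := (Finset.univ : Finset P).image (fun x : P => (x : G) • a) with hO
      have hOc : O.card = Nat.card P := by
        rw [hO, Finset.card_image_of_injective, Finset.card_univ, Nat.card_eq_fintype_card]
        intro x y hxy
        have h1 : ((y : G)⁻¹ * x) • a = a := by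
          rw [mul_smul]
          have hxy' : (x : G) • a = (y : G) • a := hxy
          rw [hxy', inv_smul_smul]
        have h2 := hfree _ (P.mul_mem (P.inv_mem y.2) x.2) a ha h1
        apply Subtype.ext
        have h3 : (x : G) = y * ((y : G)⁻¹ * x) := by group
        rw [h3, h2, mul_one]
      have hOA : O ⊆ A := by
        intro b hb
        obtain ⟨x, -, rfl⟩ := Finset.mem_image.1 hb
        exact hinv _ x.2 a ha
      have haO : a ∈ O := Finset.mem_image.2 ⟨1, Finset.mem_univ _, by simp⟩
      have hss : A \ O ⊂ A := by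
        refine ⟨Finset.sdiff_subset, fun h => ?_⟩
        have := h ha
        rw [Finset.mem_sdiff] at this
        exact this.2 haO
      have hind := ih (A \ O) hss (by
        intro x hx b hb
        rw [Finset.mem_sdiff] at hb ⊢
        refine ⟨hinv x hx b hb.1, fun hc => hb.2 ?_⟩
        obtain ⟨y, -, hy⟩ := Finset.mem_image.1 hc
        refine Finset.mem_image.2 ⟨⟨x⁻¹, P.inv_mem hx⟩ * y, Finset.mem_univ _, ?_⟩
        have hy' : (y : G) • a = x • b := hy
        change (x⁻¹ * (y : G)) • a = b
        rw [mul_smul, hy', inv_smul_smul]) (by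
        intro x hx b hb hxb
        exact hfree x hx b (Finset.mem_sdiff.1 hb).1 hxb)
      have hsum := Finset.card_sdiff_add_card_eq_card hOA
      rw [← hsum, hOc]
      exact Dvd.dvd.add hind (dvd_refl _)

/-- Membership in a conjugate of a Sylow subgroup. -/
theorem mem_smul_iff {p : ℕ} [Fact p.Prime] (g : G) (Q : Sylow p G) (v : G) :
    v ∈ ((g • Q : Sylow p G) : Subgroup G) ↔ g⁻¹ * v * g ∈ (Q : Subgroup G) := by
  rw [Sylow.coe_subgroup_smul, Subgroup.mem_pointwise_smul_iff_inv_smul_mem, MulAut.smul_def]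
  simp [MulAut.conj_inv_apply]

end Cfsg.Agent.Lib.SmallOrd.R3640.SylowPair
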