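import Mathlib
import Cfsg.Agent.Lib.SmallOrd.R3640.SylowPair
import Cfsg.Agent.Lib.Basic.SmallSimple
import Cfsg.Agent.Lib.SmallOrd.ClassSign

/-! No simple group of order 5400. -/

set_option autoImplicit false

namespace Cfsg.Agent.Lib.SmallOrd.R3640

open Subgroup Cfsg.Agent.Lib.SmallCen.SmallOrder Cfsg.Agent.Lib.SmallOrd

universe u

theorem arith5400 (idx h d c : ℕ) (hidx : idx * h = 216) (h10 : 9 < idx) (hd1 : d ≠ 1)
    (hmod : d % 5 = 1 % 5) (hdh : d ∣ h) (hc : c * d = 5 ^ 2 * h) (hcd : 75 ∣ c) : d = 6 ∧ h = 18 := by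
  have hh0 : 0 < h := Nat.pos_of_ne_zero (by rintro rfl; simp at hidx)
  have hle : h ≤ 21 := by nlinarith
  have hdle : d ≤ h := Nat.le_of_dvd hh0 hdh
  norm_num at hc
  obtain ⟨x, rfl⟩ := hcd
  interval_cases h <;> interval_cases d <;> omega

variable {G : Type u} [Group G] [Finite G]

/-- The element `t` normalizing `P` fixes a Sylow subgroup meeting `P` nontrivially. -/
theorem exists_fixed_meeting (P : Sylow 5 G) (hPc : Nat.card (P : Subgroup G) = 25)
    (hn : Nat.card (Sylow 5 G) = 36) (t : G) (ht : t ∈ normalizer ((P : Subgroup G) : Set G))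
    (ht3 : t ^ 3 = 1) :
    ∃ Q : Sylow 5 G, Q ≠ P ∧ t • Q = Q ∧ ∃ v : G, v ≠ 1 ∧ v ∈ (Q : Subgroup G) ∧ v ∈ (P : Subgroup G) := by
  classical
  haveI : Fact (Nat.Prime 5) := ⟨by norm_num⟩
  haveI : Fintype (Sylow 5 G) := Fintype.ofFinite _
  let T : Sylow 5 G → Prop := fun Q => ∀ v : G, v ∈ (Q : Subgroup G) → v ∈ (P : Subgroup G) → v = 1
  set A : Finset (Sylow 5 G) := Finset.univ.filter (fun Q => Q ≠ P ∧ T Q) with hA
  set B : Finset (Sylow 5 G) := Finset.univ.filter (fun Q => Q ≠ P ∧ ¬ T Q) with hB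
  -- closure under the normalizer of `P`
  have hfix : ∀ g ∈ normalizer ((P : Subgroup G) : Set G), g • P = P := fun g hg =>
    Sylow.smul_eq_iff_mem_normalizer.2 hg
  have hne : ∀ g ∈ normalizer ((P : Subgroup G) : Set G), ∀ Q : Sylow 5 G, Q ≠ P → g • Q ≠ P := by
    intro g hg Q hQ h
    apply hQ
    have h1 := hfix g hg
    rw [← h1] at h
    exact smul_left_cancel g h
  have hPmem : ∀ g ∈ normalizer ((P : Subgroup G) : Set G), ∀ v, v ∈ (P : Subgroup G) ↔
      g⁻¹ * v * g ∈ (P : Subgroup G) := by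
    intro g hg v
    have h1 := (Subgroup.mem_normalizer_iff.1 (inv_mem hg)) v
    rw [h1]
    simp
  have hT : ∀ g ∈ normalizer ((P : Subgroup G) : Set G), ∀ Q : Sylow 5 G, T Q → T (g • Q) := by
    intro g hg Q hQ v hv hvP
    rw [SylowPair.mem_smul_iff] at hv
    have h1 := hQ _ hv ((hPmem g hg v).1 hvP)
    have h2 : v = g * (g⁻¹ * v * g) * g⁻¹ := by group
    rw [h2, h1]
    simp
  have hT' : ∀ g ∈ normalizer ((P : Subgroup G) : Set G), ∀ Q : Sylow 5 G, ¬ T Q → ¬ T (g • Q) := by
    intro g hg Q hQ h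
    apply hQ
    have h1 := hT g⁻¹ (inv_mem hg) _ h
    rwa [inv_smul_smul] at h1
  -- the action of `P` on `A` is free
  have hAd : Nat.card (P : Subgroup G) ∣ A.card := by
    refine SylowPair.card_dvd_of_free (P : Subgroup G) A ?_ ?_
    · intro x hx Q hQ
      have hxn : x ∈ normalizer ((P : Subgroup G) : Set G) := Subgroup.le_normalizer hx
      rw [hA, Finset.mem_filter] at hQ ⊢
      exact ⟨Finset.mem_univ _, hne x hxn Q hQ.2.1, hT x hxn Q hQ.2.2⟩
    · intro x hx Q hQ hxQ
      rw [hA, Finset.mem_filter] at hQ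
      have h1 : x ∈ normalizer ((Q : Subgroup G) : Set G) := Sylow.smul_eq_iff_mem_normalizer.1 hxQ
      have h2 : (P : Subgroup G) ⊓ normalizer ((Q : Subgroup G) : Set G) = (P : Subgroup G) ⊓ (Q : Subgroup G) :=
        P.2.inf_normalizer_sylow Q
      have h3 : x ∈ (P : Subgroup G) ⊓ normalizer ((Q : Subgroup G) : Set G) := ⟨hx, h1⟩
      rw [h2] at h3
      exact hQ.2.2 x h3.2 hx
  -- counting
  have hsum : A.card + B.card = 35 := by
    have h1 : (Finset.univ.filter (fun Q : Sylow 5 G => Q ≠ P)).card = 35 := by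
      rw [Finset.filter_ne', Finset.card_erase_of_mem (Finset.mem_univ _), Finset.card_univ,
        ← Nat.card_eq_fintype_card, hn]
    rw [← h1, hA, hB, ← Finset.filter_filter, ← Finset.filter_filter]
    exact Finset.card_filter_add_card_filter_not _
  rw [hPc] at hAd
  have hB3 : B.card % 3 ≠ 0 := by
    obtain ⟨k, hk⟩ := hAd
    have : k = 0 ∨ k = 1 := by omega
    rcases this with rfl | rfl <;> omega
  -- the element `t` has a fixed point on `B`
  have hfixB := Cfsg.Agent.Lib.SmallOrd.ClassSign.card_modEq_fixed B (fun Q => t • Q) (by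
    intro Q hQ
    rw [hB, Finset.mem_filter] at hQ ⊢
    exact ⟨Finset.mem_univ _, hne t ht Q hQ.2.1, hT' t ht Q hQ.2.2⟩) Nat.prime_three (by
    intro Q _
    change t • t • t • Q = Q
    rw [smul_smul, smul_smul]
    have : t * t * t = 1 := by rw [← ht3, pow_succ, pow_two]
    rw [this, one_smul])
  have hnon : (B.filter fun Q => t • Q = Q).Nonempty := by
    rw [Finset.nonempty_iff_ne_empty]
    intro h0
    rw [h0, Finset.card_empty] at hfixB
    omega
  obtain ⟨Q, hQ⟩ := hnon
  rw [Finset.mem_filter, hB, Finset.mem_filter] at hQ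
  have hnT := hQ.1.2.2
  simp only [T, not_forall] at hnT
  obtain ⟨v, hvQ, hvP, hv1⟩ := hnT
  exact ⟨Q, hQ.1.2.1, hQ.2, v, hv1, hvQ, hvP⟩

theorem no_5400 [IsSimpleGroup G] (h : Nat.card G = 5400) : False := by
  haveI : Fact (Nat.Prime 5) := ⟨by norm_num⟩
  have hG : Nat.card G = 5 ^ 2 * 216 := by rw [h]; norm_num
  have hm : ¬ 5 ∣ 216 := by norm_num
  have hlt : ∀ H : Subgroup G, H ≠ ⊤ → 9 < H.index :=
    fun H hH => lt_index (by rw [h]; norm_num [Nat.factorial]) H hH
  obtain ⟨P⟩ : Nonempty (Sylow 5 G) := inferInstance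
  have hPc := card_sylow_eq hG hm P
  have hNne : normalizer ((P : Subgroup G) : Set G) ≠ ⊤ :=
    normalizer_ne_top P (by rw [hPc]; norm_num) (by rw [hPc, h]; norm_num)
  have hn : 9 < Nat.card (Sylow 5 G) := by
    have e : Nat.card (Sylow 5 G) = (normalizer ((P : Subgroup G) : Set G)).index :=
      P.card_eq_index_normalizer
    rw [e]
    exact hlt _ hNne
  have h1 : Nat.card (Sylow 5 G) % 5 = 1 % 5 := card_sylow_modEq_one 5 G
  have hi : (P : Subgroup G).index = 216 := by
    have := Subgroup.card_mul_index (P : Subgroup G)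
    rw [hPc, h] at this
    omega
  have h2 : Nat.card (Sylow 5 G) ∣ 216 := hi ▸ P.card_dvd_index
  have hn36 : Nat.card (Sylow 5 G) = 36 ∨ Nat.card (Sylow 5 G) = 216 := by
    generalize Nat.card (Sylow 5 G) = n at hn h1 h2
    have hle : n ≤ 216 := Nat.le_of_dvd (by norm_num) h2
    interval_cases n <;> omega
  have hNc := card_normalizer_mul P
  rcases hn36 with hn36 | hn216
  · -- thirty-six Sylow subgroups
    have hN : Nat.card (normalizer ((P : Subgroup G) : Set G)) = 150 := by
      rw [hn36, h] at hNc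
      omega
    haveI : Fact (Nat.Prime 3) := ⟨Nat.prime_three⟩
    obtain ⟨x, hx⟩ := exists_prime_orderOf_dvd_card' (G := normalizer ((P : Subgroup G) : Set G)) 3
      (by rw [hN]; norm_num)
    set t : G := (x : G) with ht
    have hto : orderOf t = 3 := by rw [ht, Subgroup.orderOf_coe, hx]
    have ht3 : t ^ 3 = 1 := by rw [← hto]; exact pow_orderOf_eq_one t
    have hP25 : Nat.card (P : Subgroup G) = 25 := by rw [hPc]; norm_num
    obtain ⟨Q, hQP, htQ, v, hv1, hvQ, hvP⟩ := exists_fixed_meeting P hP25 hn36 t x.2 ht3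
    have hQc : Nat.card (Q : Subgroup G) = 25 := by rw [card_sylow_eq hG hm Q]; norm_num
    set L : Subgroup G := (P : Subgroup G) ⊓ (Q : Subgroup G) with hL
    have hLP := Cfsg.Agent.Lib.Perm.SylowIn.card_mul_relIndex (inf_le_left : L ≤ (P : Subgroup G))
    have hLQ := Cfsg.Agent.Lib.Perm.SylowIn.card_mul_relIndex (inf_le_right : L ≤ (Q : Subgroup G))
    have hL1 : Nat.card L ≠ 1 := by
      intro h0
      have h3 : L = ⊥ := Subgroup.card_eq_one.mp h0
      have h4 : v ∈ L := ⟨hvP, hvQ⟩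
      rw [h3, Subgroup.mem_bot] at h4
      exact hv1 h4
    have hL25 : Nat.card L ≠ 25 := by
      intro h0
      apply hQP
      have h3 : L = (P : Subgroup G) := Subgroup.eq_of_le_of_card_ge inf_le_left (by rw [h0, hP25])
      have h4 : L = (Q : Subgroup G) := Subgroup.eq_of_le_of_card_ge inf_le_right (by rw [h0, hQc])
      apply Sylow.ext
      rw [← h3, ← h4]
    have hLd : Nat.card L ∣ 5 ^ 2 := by
      rw [show (5 : ℕ) ^ 2 = 25 by norm_num, ← hP25]
      exact Subgroup.card_dvd_of_le inf_le_left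
    have hL5 : Nat.card L = 5 := by
      obtain ⟨j, hj, hj2⟩ := (Nat.dvd_prime_pow (by norm_num : Nat.Prime 5)).1 hLd
      interval_cases j <;> simp_all
    have hrP : L.relIndex (P : Subgroup G) = 5 := by
      rw [hL5, hP25] at hLP
      exact Nat.eq_of_mul_eq_mul_left (by norm_num : 0 < 5) (by rw [hLP])
    have hrQ : L.relIndex (Q : Subgroup G) = 5 := by
      rw [hL5, hQc] at hLQ
      exact Nat.eq_of_mul_eq_mul_left (by norm_num : 0 < 5) (by rw [hLQ])
    have hPN := le_normalizer_of_index_prime (by norm_num : Nat.Prime 5) inf_le_left P.2 hrP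
    have hQN := le_normalizer_of_index_prime (by norm_num : Nat.Prime 5) inf_le_right Q.2 hrQ
    set H : Subgroup G := normalizer (L : Set G) with hH
    have hHne : H ≠ ⊤ := by
      intro h0
      have hNL : L.Normal := Subgroup.normalizer_eq_top_iff.1 h0
      rcases hNL.eq_bot_or_eq_top with h3 | h3
      · rw [h3, Subgroup.card_bot] at hL5
        omega
      · rw [h3, Subgroup.card_top, h] at hL5
        omega
    obtain ⟨k, hHc, hidx, hd1, hmod, hdk, hc⟩ :=
      SylowPair.overgroup_data hG hm P Q (Ne.symm hQP) H hPN hQN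
    have htH : t ∈ H := by
      rw [hH, Subgroup.mem_normalizer_iff]
      intro y
      have h3 : y ∈ (P : Subgroup G) ↔ t * y * t⁻¹ ∈ (P : Subgroup G) :=
        (Subgroup.mem_normalizer_iff.1 x.2) y
      have h4 : t ∈ normalizer ((Q : Subgroup G) : Set G) := Sylow.smul_eq_iff_mem_normalizer.1 htQ
      have h5 : y ∈ (Q : Subgroup G) ↔ t * y * t⁻¹ ∈ (Q : Subgroup G) :=
        (Subgroup.mem_normalizer_iff.1 h4) y
      rw [hL, Subgroup.mem_inf, Subgroup.mem_inf, h3, h5]
    set M : Subgroup G := normalizer ((P : Subgroup G) : Set G) ⊓ H with hM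
    have hPM : (P : Subgroup G) ≤ M := le_inf Subgroup.le_normalizer hPN
    have h25 : 25 ∣ Nat.card M := hP25 ▸ Subgroup.card_dvd_of_le hPM
    have h3M : 3 ∣ Nat.card M := by
      have htM : t ∈ M := ⟨x.2, htH⟩
      have := orderOf_dvd_natCard (⟨t, htM⟩ : M)
      rwa [Subgroup.orderOf_mk, hto] at this
    have h75 : 75 ∣ Nat.card M := by
      have : Nat.Coprime 25 3 := by norm_num
      exact this.mul_dvd_of_dvd_of_dvd h25 h3M
    rw [hHc] at hc
    obtain ⟨hd6, hk18⟩ := arith5400 _ _ _ _ hidx (hlt H hHne) hd1 hmod hdk hc h75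
    have hodd := SylowPair.odd_card_sylow (H := H) (p := 5) (by norm_num) (k := 225) (by decide)
      (by rw [hHc, hk18]; norm_num)
    rw [hd6] at hodd
    exact absurd hodd (by decide)
  · -- the normalizer is `P`
    have hN : Nat.card (normalizer ((P : Subgroup G) : Set G)) = 25 := by
      rw [hn216, h] at hNc
      omega
    have hle : normalizer ((P : Subgroup G) : Set G) ≤ (P : Subgroup G) := by
      have h3 : (P : Subgroup G) = normalizer ((P : Subgroup G) : Set G) :=
        Subgroup.eq_of_le_of_card_ge Subgroup.le_normalizer (by rw [hN, hPc]; norm_num)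
      exact h3.symm.le
    have hcomm : IsMulCommutative (P : Subgroup G) := by
      have hPp : IsPGroup 5 (P : Subgroup G) := P.2
      have hc2 : Nat.card (P : Subgroup G) = 5 ^ 2 := hPc
      exact IsPGroup.isMulCommutative_of_card_eq_prime_sq hc2
    have hcen : normalizer ((P : Subgroup G) : Set G) ≤ centralizer ((P : Subgroup G) : Set G) := by
      intro y hy
      rw [Subgroup.mem_centralizer_iff]
      intro z hz
      have h3 := hcomm.is_comm.comm (⟨z, hz⟩ : (P : Subgroup G)) ⟨y, hle hy⟩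
      exact congrArg Subtype.val h3
    have h3 := Cfsg.Agent.Lib.Basic.SmallSimple.card_eq_of_le_centralizer (by rw [h]; norm_num) P hcen
    rw [h, hPc] at h3
    omega

end Cfsg.Agent.Lib.SmallOrd.R3640
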