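import Mathlib
import Cfsg.Agent.Lib.SmallOrd.R3640.KleinNum
import Cfsg.Agent.S0992

/-!
# No simple group of order 5460
-/

set_option autoImplicit false

namespace Cfsg.Agent.Lib.SmallOrd.R3640

open Subgroup Cfsg.Agent.Lib.SmallOrd.R3640.K

universe u

theorem K.num_5460 : ∀ a ∈ divs 1365, ∀ b ∈ divs 1365, ∀ c ∈ divs 1365, ∀ ε ∈ ([1, -1] : List ℤ),
    1 + (a : ℤ) + ε * b = c → ∀ cJ ∈ divs 5460, ∀ cP ∈ divs cJ, KCond 1365 a b c ε cJ cP →
      (cJ = 364 ∧ cP = 364) ∨ (cJ = 60 ∧ cP = 20) := by
  decide +kernel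

variable {G : Type u} [Group G] [Finite G]

theorem K.card_dvd_factorial_index' [IsSimpleGroup G] (H : Subgroup G) (hH : H ≠ ⊤) :
    Nat.card G ∣ (H.index).factorial := by
  have h1 := Subgroup.card_dvd_of_injective (Cfsg.Agent.Lib.SmallOrd.act H)
    (Cfsg.Agent.Lib.SmallCen.SmallOrder.toPermHom_injective H hH)
  rwa [Nat.card_perm] at h1

theorem no_5460 [IsSimpleGroup G] (h : Nat.card G = 5460) : False := by
  classical
  cases nonempty_fintype G
  haveI : Fact (Nat.Prime 2) := ⟨by norm_num⟩
  haveI : Fact (Nat.Prime 5) := ⟨by norm_num⟩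
  obtain ⟨P⟩ : Nonempty (Sylow 2 G) := inferInstance
  obtain ⟨a, ha, b, hb, c, hc, ε, hε, cJ, hcJ, cP, hcP, hcPe, hK⟩ :=
    exists_kcond (g₀ := 1365) (by decide) (by rw [h]) (by norm_num) P
  have hnc : ¬ IsMulCommutative G := by
    intro hc
    have h4 : (Nat.card G).Prime := Group.is_simple_iff_prime_card.mp inferInstance
    rw [h] at h4
    norm_num at h4
  have hPc : Nat.card (P : Subgroup G) = 4 := by
    have := Cfsg.Agent.Lib.SmallCen.SmallOrder.card_sylow_eq (p := 2) (a := 2) (m := 1365) (G := G)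
      (by rw [h]; norm_num) (by norm_num) P
    simpa using this
  rcases K.num_5460 a ha b hb c hc ε hε hK.2.2.2.1 cJ hcJ cP hcP hK with ⟨-, h2⟩ | ⟨-, h2⟩
  · -- `N(P)` has index 5
    have hrel := (Cfsg.Agent.S0992.result hnc (by rw [h]; decide) (by rw [h]; norm_num) P).2
    have hle : Subgroup.centralizer ((P : Subgroup G) : Set G) ≤ Subgroup.normalizer ((P : Subgroup G) : Set G) :=
      Subgroup.centralizer_le_normalizer _
    have hcardN := Cfsg.Agent.Lib.Perm.SylowIn.card_mul_relIndex hle
    rw [hrel, ← hcPe, h2] at hcardN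
    have hidx : (Subgroup.normalizer ((P : Subgroup G) : Set G)).index = 5 := by
      have h3 := Subgroup.card_mul_index (Subgroup.normalizer ((P : Subgroup G) : Set G))
      rw [← hcardN, h] at h3
      omega
    have hne : Subgroup.normalizer ((P : Subgroup G) : Set G) ≠ ⊤ := by
      intro h3
      rw [h3, Subgroup.index_top] at hidx
      omega
    have h3 := K.card_dvd_factorial_index' _ hne
    rw [hidx, h] at h3
    exact absurd h3 (by decide)
  · -- an element of order 5 centralizes `P`
    have hdvd : 5 ∣ Nat.card (Subgroup.centralizer ((P : Subgroup G) : Set G)) := by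
      rw [← hcPe, h2]
      norm_num
    obtain ⟨f₀, hf₀⟩ := exists_prime_orderOf_dvd_card' 5 hdvd
    set f : G := (f₀ : G) with hf
    have hfo : orderOf f = 5 := by
      rw [hf, Subgroup.orderOf_coe, hf₀]
    have hfP : ∀ y ∈ (P : Subgroup G), y * f = f * y := fun y hy => (Subgroup.mem_centralizer_iff.1 f₀.2 y hy)
    obtain ⟨-, P5, x, M, e, hP5, hx, hx1, hM, he, hed, he0, he1, hNC, hNn, -, hCx, -⟩ :=
      Cfsg.Agent.Lib.SmallOrd.PN.setup (p := 5) (G := G) (m := 1092) (by norm_num) (by rw [h]) (by norm_num)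
        (by norm_num)
    -- conjugate `f` into `P5`
    have hpg : IsPGroup 5 (Subgroup.zpowers f) := by
      apply IsPGroup.of_card (n := 1)
      rw [Nat.card_zpowers, hfo]
      norm_num
    obtain ⟨Q, hQ⟩ := hpg.exists_le_sylow
    have hfQ : f ∈ (Q : Subgroup G) := hQ (Subgroup.mem_zpowers f)
    obtain ⟨g, hg⟩ := MulAction.exists_smul_eq G Q P5
    set f' : G := g * f * g⁻¹ with hf'
    have hf'P : f' ∈ (P5 : Subgroup G) := by
      rw [← hg, Sylow.coe_subgroup_smul, Subgroup.mem_pointwise_smul_iff_inv_smul_mem]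
      simpa [hf', MulAut.smul_def, mul_assoc] using hfQ
    have hf'1 : f' ≠ 1 := by
      intro h1
      have h3 : f = 1 := by
        have h4 : g * f * g⁻¹ = 1 := h1
        calc f = g⁻¹ * (g * f * g⁻¹) * g := by group
          _ = 1 := by rw [h4]; group
      rw [h3, orderOf_one] at hfo
      omega
    -- `x` is a power of `f'`
    have hx' : (⟨x, hx⟩ : (P5 : Subgroup G)) ∈ Subgroup.zpowers (⟨f', hf'P⟩ : (P5 : Subgroup G)) := by
      have hcardF : Nat.card (P5 : Subgroup G) = 5 := hP5
      exact mem_zpowers_of_prime_card hcardF (fun h1 => hf'1 (congrArg Subtype.val h1))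
    obtain ⟨k, hk⟩ := Subgroup.mem_zpowers_iff.1 hx'
    have hk' : f' ^ k = x := by
      have := congrArg Subtype.val hk
      simpa using this
    -- the conjugate of `P` centralizes `P5`
    set W : Subgroup G := (P : Subgroup G).map (MulAut.conj g).toMonoidHom with hW
    have hWc : Nat.card W = 4 := by
      rw [hW, Subgroup.card_map_of_injective (MulAut.conj g).injective, hPc]
    have hWle : W ≤ Subgroup.centralizer ((P5 : Subgroup G) : Set G) := by
      intro w hw
      rw [hCx]
      obtain ⟨y, hy, rfl⟩ := Subgroup.mem_map.1 hw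
      rw [← hk']
      refine Commute.zpow_right ?_ k
      show (MulAut.conj g) y * f' = f' * (MulAut.conj g) y
      have h5 := hfP y hy
      simp only [MulAut.conj_apply, hf']
      calc g * y * g⁻¹ * (g * f * g⁻¹) = g * (y * f) * g⁻¹ := by group
        _ = g * (f * y) * g⁻¹ := by rw [h5]
        _ = g * f * g⁻¹ * (g * y * g⁻¹) := by group
    have h4d : 4 ∣ Nat.card (Subgroup.centralizer ((P5 : Subgroup G) : Set G)) := by
      rw [← hWc]
      exact Subgroup.card_dvd_of_le hWle
    obtain ⟨t, ht⟩ := h4d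
    have h2e : 2 ∣ e := by
      have hle4 : e ≤ 4 := Nat.le_of_dvd (by norm_num) hed
      interval_cases e <;> simp_all
    obtain ⟨e', rfl⟩ := h2e
    rw [hNC, ht, h] at hNn
    have : 8 * (t * e' * Nat.card (Sylow 5 G)) = 5460 := by
      rw [← hNn]
      ring
    omega

end Cfsg.Agent.Lib.SmallOrd.R3640
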