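import Mathlib
import Cfsg.Agent.Lib.SmallOrd.R3640.Deg3
import Cfsg.Agent.Lib.SmallOrd.R3640.O5460
import Cfsg.Agent.S1010

/-!
# No simple group of order 5880
-/

set_option autoImplicit false

namespace Cfsg.Agent.Lib.SmallOrd.R3640

open Subgroup Cfsg Cfsg.Agent.Lib.SmallOrd.R3640.K

universe u

theorem T.num_5880 : ∀ d ∈ divs 1176, ∀ D ∈ divs 1176, ∀ ε₁ ∈ ([1, -1] : List ℤ), ∀ ε ∈ ([1, -1] : List ℤ),
    10 ≤ d → 1 < D → (5 : ℤ) ∣ (d : ℤ) - ε₁ → (5 : ℤ) ∣ (D : ℤ) - ε * 2 → ε * D ≠ 1 + ε₁ * d := by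
  decide +kernel

theorem T.num_n5 : ∀ n ∈ divs 1176, n % 5 = 1 → n = 1 ∨ n = 6 ∨ n = 21 ∨ n = 56 ∨ n = 196 ∨ n = 1176 := by
  decide +kernel

variable {G : Type u} [Group G] [Finite G]

theorem no_5880 [IsSimpleGroup G] (h : Nat.card G = 5880) : False := by
  classical
  cases nonempty_fintype G
  haveI : Fact (Nat.Prime 5) := ⟨by norm_num⟩
  obtain ⟨hperf, P, x, M, e, hP, hx, hx1, hM, he, hed, he0, he1, hNC, hNn, hmod, hCx, hPle⟩ :=
    Cfsg.Agent.Lib.SmallOrd.PN.setup (p := 5) (G := G) (m := 1176) (by norm_num) (by rw [h]) (by norm_num)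
      (by norm_num)
  have hdvd5 := Subgroup.card_dvd_of_le hPle
  have hP' : Nat.card (P : Subgroup G) = 5 := hP
  rw [hP'] at hdvd5
  obtain ⟨w, hw⟩ := hdvd5
  set n5 := Nat.card (Sylow 5 G) with hn5
  have hprod : w * e * n5 = 1176 := by
    rw [hNC, hw, h] at hNn
    have : 5 * (w * e * n5) = 5880 := by
      rw [← hNn]
      ring
    omega
  have hed4 : e = 2 ∨ e = 4 := by
    have hle4 : e ≤ 4 := Nat.le_of_dvd (by norm_num) hed
    interval_cases e <;> simp_all
  have hidx : (Subgroup.normalizer ((P : Subgroup G) : Set G)).index = n5 := by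
    have h3 := Subgroup.card_mul_index (Subgroup.normalizer ((P : Subgroup G) : Set G))
    have h4 : 0 < Nat.card (Subgroup.normalizer ((P : Subgroup G) : Set G)) := Nat.card_pos
    exact Nat.eq_of_mul_eq_mul_left h4 (h3.trans hNn.symm)
  have hne : Subgroup.normalizer ((P : Subgroup G) : Set G) ≠ ⊤ := by
    intro h3
    have h4 : (P : Subgroup G).Normal := Subgroup.normalizer_eq_top_iff.1 h3
    rcases h4.eq_bot_or_eq_top with h5 | h5
    · rw [h5, Subgroup.card_bot] at hP'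
      omega
    · rw [h5, Subgroup.card_top, h] at hP'
      omega
  have hfac := K.card_dvd_factorial_index' _ hne
  rw [hidx, h] at hfac
  have hn5d : n5 ∣ 1176 := ⟨w * e, by rw [← hprod]; ring⟩
  rcases T.num_n5 n5 (mem_divs hn5d (by norm_num)) hmod with h6 | h6 | h6 | h6 | h6 | h6
  · rw [h6] at hfac
    exact absurd hfac (by decide)
  · rw [h6] at hfac
    exact absurd hfac (by decide)
  · exact Cfsg.Agent.S1010.result (G := G) h6
  · rw [h6] at hprod
    rcases hed4 with rfl | rfl <;> omega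
  · rw [h6] at hprod
    -- `e = 2`, `w = 3`
    have he2 : e = 2 := by
      rcases hed4 with rfl | rfl
      · rfl
      · omega
    subst he2
    have hw3 : w = 3 := by omega
    subst hw3
    -- an element of order 3 in `C(P)`
    have h3d : 3 ∣ Nat.card (Subgroup.centralizer ((P : Subgroup G) : Set G)) := by
      rw [hw]
      norm_num
    haveI : Fact (Nat.Prime 3) := ⟨Nat.prime_three⟩
    obtain ⟨z₀, hz₀⟩ := exists_prime_orderOf_dvd_card' 3 h3d
    have hz3 : orderOf (z₀ : G) = 3 := by rw [Subgroup.orderOf_coe, hz₀]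
    obtain ⟨D⟩ := Cfsg.Agent.Lib.SmallOrd.PN.exists_data hM (by norm_num) P hP 2 he
    obtain ⟨χ₁, θ, hχ₁, hθne, hX, hθ, hs1, hs, hd1, hd2, hl1, hl2, hc1, hc2, hsum, hrel⟩ :=
      D.two_degrees hM (by norm_num) (by norm_num) hperf (m := 1176) (by rw [h]) (by norm_num)
    have h1X : χ₁ ∈ D.X := by rw [hX]; simp
    have hne1 : (χ₁ : G → ℂ) ≠ fun _ => 1 := fun h7 => hχ₁ (Subtype.ext h7)
    have hb := T.three_bound D hM (by norm_num) (by norm_num) hperf hP hx hx1 z₀.2 hz3 h1X hne1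
    refine T.num_5880 _ (mem_divs hd1 (by norm_num)) _ (mem_divs hd2 (by norm_num)) _
      (by rcases hs1 with h7 | h7 <;> rw [h7] <;> simp) _ (by rcases hs with h7 | h7 <;> rw [h7] <;> simp)
      hb hl2 (Int.modEq_iff_dvd.1 hc1.symm) (Int.modEq_iff_dvd.1 hc2.symm) hsum
  · rw [h6] at hprod
    rcases hed4 with rfl | rfl <;> omega

end Cfsg.Agent.Lib.SmallOrd.R3640
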