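import Mathlib
import Cfsg.Agent.Lib.SmallOrd.R3640.SP

/-!
# No simple group of order 6000
-/

set_option autoImplicit false
set_option linter.unusedSectionVars false
set_option linter.unusedVariables false
set_option linter.style.haveILetI false

namespace Cfsg.Agent.Lib.SmallOrd.R3640

open Subgroup MulAction SP

universe u

theorem no_6000 {G : Type u} [Group G] [Finite G] [IsSimpleGroup G] (h : Nat.card G = 6000) : False := by
  classical
  haveI h5 : Fact (Nat.Prime 5) := ⟨by norm_num⟩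
  have hG' : Nat.card G = 5 ^ 3 * 48 := by rw [h]; norm_num
  have hpm : ¬ 5 ∣ 48 := by norm_num
  have hNC : ¬ IsMulCommutative G := not_comm (by rw [h]; norm_num)
  obtain ⟨P⟩ : Nonempty (Sylow 5 G) := inferInstance
  have hne := normalizer_ne_top hG' hpm (by norm_num) (by norm_num) P
  have hmod := card_sylow_modEq_one 5 G
  obtain ⟨n, hn⟩ : ∃ n, n = Nat.card (Sylow 5 G) := ⟨_, rfl⟩
  have hmul : Nat.card (normalizer ((P : Subgroup G) : Set G)) * n = Nat.card G := by
    rw [hn, P.card_eq_index_normalizer]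
    exact Subgroup.card_mul_index _
  have hP5 : 5 ^ 3 ∣ Nat.card (normalizer ((P : Subgroup G) : Set G)) := by
    rw [← card_sylow_eq hG' hpm P]
    exact Subgroup.card_dvd_of_le Subgroup.le_normalizer
  obtain ⟨c, hc⟩ := hP5
  have hn48 : c * n = 48 := by
    rw [hc, hG', mul_assoc] at hmul
    exact Nat.eq_of_mul_eq_mul_left (by norm_num) hmul
  have hidx : (normalizer ((P : Subgroup G) : Set G)).index = n := by
    rw [hn, P.card_eq_index_normalizer]
    rfl
  have hf := two_mul_dvd_factorial hNC _ hne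
  rw [hidx, h] at hf
  have hnmod : n % 5 = 1 := by
    rw [← hn] at hmod
    exact hmod
  have hnd : n ∣ 48 := ⟨c, by rw [← hn48]; ring⟩
  have hnle : n ≤ 48 := Nat.le_of_dvd (by norm_num) hnd
  have hn16 : n = 16 := by
    interval_cases n <;> first | rfl | (exfalso; revert hnmod hnd hf; norm_num [Nat.factorial]; done)
  subst hn16
  obtain ⟨S, R, hSR, hcard, hS, hR⟩ := Cfsg.Agent.Lib.SmallOrd.exists_sylow_pair_of_not_modEq (G := G) (p := 5) (by
    rw [← hn]
    decide)
  have hDne : (S : Subgroup G) ⊓ (R : Subgroup G) ≠ ⊥ := by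
    intro h0
    rw [h0, card_sylow_eq hG' hpm S] at hcard
    simp at hcard
  obtain ⟨idx, k, d, N', hHt, hHi, hik, hHc, hd, hd1, hdm, hNd, hNc⟩ := pair_data hG' hpm S R hSR hDne hS hR
  have hf2 := two_mul_dvd_factorial hNC _ hHt
  rw [hHi, h] at hf2
  have key : ∀ idx ∈ Finset.range 49, ∀ k ∈ Finset.range 49, idx * k = 48 → ∀ d ∈ Finset.range 49, d ∣ k → d ≠ 1 → d % 5 = 1 →
      ¬ 12000 ∣ idx.factorial := by decide +kernel
  have h48 : 0 < idx ∧ 0 < k := by
    constructor <;> (apply Nat.pos_of_ne_zero; rintro rfl; simp at hik)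
  have hdk : d ∣ k := ⟨N', by rw [← hNd]; ring⟩
  have hkle : k ≤ 48 := Nat.le_of_dvd (by norm_num) ⟨idx, by rw [← hik]; ring⟩
  have hidxle : idx ≤ 48 := Nat.le_of_dvd (by norm_num) ⟨k, by rw [← hik]⟩
  have hdle : d ≤ k := Nat.le_of_dvd h48.2 hdk
  exact key idx (Finset.mem_range.2 (by omega)) k (Finset.mem_range.2 (by omega)) hik d (Finset.mem_range.2 (by omega)) hdk hd1 hdm (by
    simpa using hf2)

end Cfsg.Agent.Lib.SmallOrd.R3640
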